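import Mathlib

/-!
A group of odd prime power order acting on a finite set has a subset whose setwise stabiliser acts
trivially.
-/

set_option autoImplicit false

namespace Cfsg.Agent.Lib.AvoidConj

universe u v

theorem exists_distinguishing_subset_aux {p : ℕ} [hp : Fact p.Prime] (hp2 : p ≠ 2) :
    ∀ (n : ℕ) (P : Type u) [Group P] [Finite P] (α : Type v) [Finite α] [MulAction P α],
      IsPGroup p P → Nat.card α = n →
      ∃ S : Set α, ∀ g : P, (∀ a, a ∈ S ↔ g • a ∈ S) → ∀ a : α, g • a = a := by
  intro n
  induction n using Nat.strong_induction_on with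
  | _ n ih =>
    intro P _ _ α _ _ hP hn
    classical
    rcases isEmpty_or_nonempty α with h0 | h0
    · exact ⟨∅, fun g _ a => (h0.false a).elim⟩
    obtain ⟨a₀⟩ := h0
    by_cases htr : ∀ a : α, ∃ g : P, g • a₀ = a
    · by_cases hstab : MulAction.stabilizer P a₀ = ⊤
      · refine ⟨∅, fun g _ a => ?_⟩
        have hfix : ∀ h : P, h • a₀ = a₀ := fun h =>
          MulAction.mem_stabilizer_iff.1 (hstab ▸ Subgroup.mem_top h)
        obtain ⟨k, rfl⟩ := htr a
        rw [smul_smul, hfix, hfix]
      obtain ⟨Q, hQ, hHQ⟩ := (eq_top_or_exists_le_coatom (MulAction.stabilizer P a₀)).resolve_left hstab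
      haveI : Group.IsNilpotent P := hP.isNilpotent
      haveI hQn : Q.Normal := Subgroup.NormalizerCondition.normal_of_coatom (H := Q)
        normalizerCondition_of_isNilpotent hQ
      choose r hr using htr
      have hrQ : ∀ g : P, g⁻¹ * r (g • a₀) ∈ Q := fun g => hHQ (by
        rw [MulAction.mem_stabilizer_iff, ← smul_smul, hr, inv_smul_smul])
      let B : SubMulAction Q α :=
        { carrier := {a | r a ∈ Q}
          smul_mem' := fun q a ha => by
            change r ((q : P) • a) ∈ Q
            have h := hrQ ((q : P) * r a)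
            rw [← smul_smul, hr] at h
            have h' := Q.mul_mem (Q.mul_mem q.2 ha) h
            simpa [mul_assoc] using h' }
      have hBmem : ∀ a, a ∈ B ↔ r a ∈ Q := fun a => Iff.rfl
      have ha₀ : a₀ ∈ B := by
        have := hrQ 1
        rw [hBmem]; simpa using this
      obtain ⟨g₀, hg₀⟩ : ∃ g : P, g ∉ Q := by
        by_contra hc
        push_neg at hc
        exact hQ.1 (eq_top_iff.2 fun x _ => hc x)
      have hnot : ∀ g : P, g ∉ Q → g • a₀ ∉ B := fun g hg hmem =>
        hg (by simpa using Q.mul_mem ((hBmem _).1 hmem) (Q.inv_mem (hrQ g)))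
      have hlt : Nat.card B < n := by
        rw [← hn]
        exact Finite.card_subtype_lt (p := fun a : α => a ∈ B) (hnot g₀ hg₀)
      obtain ⟨T, hT⟩ := ih _ hlt Q B (hP.to_subgroup Q) rfl
      let c : α → P := fun a => Quotient.out (QuotientGroup.mk (r a) : P ⧸ Q)
      have hc : ∀ a, (c a)⁻¹ * r a ∈ Q := fun a => QuotientGroup.eq.1 (by
        simp only [c]; exact QuotientGroup.out_eq' _)
      have hcB : ∀ a, (c a)⁻¹ • a ∈ B := fun a => by
        have h := hrQ ((c a)⁻¹ * r a)
        rw [← smul_smul, hr] at h
        rw [hBmem]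
        have h' := Q.mul_mem (hc a) h
        simpa [mul_assoc] using h'
      let S : Set α := {a | if h : a ∈ B then (⟨a, h⟩ : B) ∈ T else (⟨(c a)⁻¹ • a, hcB a⟩ : B) ∉ T}
      have hSB : ∀ (b : B), (b : α) ∈ S ↔ b ∈ T := fun b => by
        simp only [S, Set.mem_ofPred_eq, dif_pos b.2]
      have hSn : ∀ (a : α), a ∉ B → (a ∈ S ↔ (⟨(c a)⁻¹ • a, hcB a⟩ : B) ∉ T) := fun a ha => by
        simp only [S, Set.mem_ofPred_eq, dif_neg ha]
      -- the class of `g • b` for `b` in `B`
      have hcls : ∀ (g : P) (b : B), (QuotientGroup.mk (r (g • (b : α))) : P ⧸ Q) = QuotientGroup.mk g := by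
        intro g b
        have h := hrQ (g * r b)
        rw [← smul_smul, hr] at h
        refine (QuotientGroup.eq.2 ?_).symm
        simpa [mul_assoc] using Q.mul_mem ((hBmem _).1 b.2) h
      refine ⟨S, fun g hg => ?_⟩
      by_cases hgQ : g ∈ Q
      · intro a
        by_cases ha : a ∈ B
        · have := hT ⟨g, hgQ⟩ (fun b => by
            rw [← hSB, ← hSB]; exact hg b) ⟨a, ha⟩
          exact congrArg Subtype.val this
        · have hq : (c a)⁻¹ * g * c a ∈ Q := by
            simpa using hQn.conj_mem g hgQ (c a)⁻¹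
          have key : ∀ b : B, b ∈ T ↔ (⟨(c a)⁻¹ * g * c a, hq⟩ : Q) • b ∈ T := by
            intro b
            have hgc : (QuotientGroup.mk (g * c a) : P ⧸ Q) = QuotientGroup.mk (c a) :=
              (QuotientGroup.eq.2 (by rw [← mul_assoc]; exact hq)).symm
            have hB1 : c a • (b : α) ∉ B := fun hm => by
              have h1 := hcls (c a) b
              have h2 : (QuotientGroup.mk (c a) : P ⧸ Q) = QuotientGroup.mk (r a) := QuotientGroup.out_eq' _
              rw [h2, QuotientGroup.eq] at h1
              exact ha ((hBmem _).2 (by simpa using Q.mul_mem ((hBmem _).1 hm) h1))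
            have hB2 : g • (c a • (b : α)) ∉ B := fun hm => hB1 (by
              have := B.smul_mem ⟨g, hgQ⟩⁻¹ hm
              simpa [Subgroup.smul_def] using this)
            have e1 : c (c a • (b : α)) = c a := by
              show Quotient.out (QuotientGroup.mk (r _) : P ⧸ Q) = _
              rw [hcls (c a) b, QuotientGroup.out_eq']
            have e2 : c (g • (c a • (b : α))) = c a := by
              show Quotient.out (QuotientGroup.mk (r _) : P ⧸ Q) = _
              rw [smul_smul, hcls (g * c a) b, hgc, QuotientGroup.out_eq']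
            have h1 := hSn _ hB1
            have h2 := hSn _ hB2
            have h3 := hg (c a • (b : α))
            have t1 : (⟨(c (c a • (b : α)))⁻¹ • (c a • (b : α)), hcB _⟩ : B) = b :=
              Subtype.ext (show (c (c a • (b : α)))⁻¹ • (c a • (b : α)) = (b : α) by rw [e1, inv_smul_smul])
            have t2 : (⟨(c (g • (c a • (b : α))))⁻¹ • (g • (c a • (b : α))), hcB _⟩ : B)
                = (⟨(c a)⁻¹ * g * c a, hq⟩ : Q) • b :=
              Subtype.ext (show (c (g • (c a • (b : α))))⁻¹ • (g • (c a • (b : α))) = _ by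
                rw [e2, SubMulAction.val_smul, Subgroup.smul_def, smul_smul, smul_smul])
            rw [t1] at h1
            rw [t2] at h2
            tauto
          have h := congrArg Subtype.val (hT _ key ⟨(c a)⁻¹ • a, hcB a⟩)
          rw [SubMulAction.val_smul, Subgroup.smul_def] at h
          simp only [smul_smul, mul_assoc, mul_inv_cancel, mul_one] at h
          rw [← smul_smul] at h
          exact (MulAction.injective _) h
      · exfalso
        set d : P := c (g • a₀) with hd
        have hdg : (QuotientGroup.mk d : P ⧸ Q) = QuotientGroup.mk g := by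
          rw [hd]; show (QuotientGroup.mk (Quotient.out (_ : P ⧸ Q)) : P ⧸ Q) = _
          rw [QuotientGroup.out_eq']
          exact hcls g ⟨a₀, ha₀⟩
        let q : Q := ⟨d⁻¹ * g, QuotientGroup.eq.1 hdg⟩
        have key : ∀ b : B, b ∈ T ↔ q • b ∉ T := by
          intro b
          have hB2 : g • (b : α) ∉ B := fun hm => by
            have h1 := hcls g b
            rw [QuotientGroup.eq] at h1
            exact hgQ (by simpa using Q.mul_mem ((hBmem _).1 hm) h1)
          have e2 : c (g • (b : α)) = d := by
            show Quotient.out (QuotientGroup.mk (r _) : P ⧸ Q) = Quotient.out (QuotientGroup.mk (r _) : P ⧸ Q)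
            rw [hcls g b, hcls g ⟨a₀, ha₀⟩]
          have t2 : (⟨(c (g • (b : α)))⁻¹ • (g • (b : α)), hcB _⟩ : B) = q • b :=
            Subtype.ext (show (c (g • (b : α)))⁻¹ • (g • (b : α)) = _ by
              rw [e2, SubMulAction.val_smul, Subgroup.smul_def, smul_smul])
          have h2 := hSn _ hB2
          rw [t2] at h2
          exact ((hSB b).symm.trans (hg b)).trans h2
        have key2 : ∀ b : B, b ∈ T ↔ q ^ 2 • b ∈ T := fun b => by
          rw [pow_two, mul_smul]
          have := key b; have := key (q • b); tauto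
        have hq2 := hT _ key2
        have hodd : Odd (orderOf q) := by
          obtain ⟨k, hk⟩ := (IsPGroup.iff_orderOf.1 (hP.to_subgroup Q)) q
          rw [hk]; exact ((hp.out.odd_of_ne_two hp2)).pow
        obtain ⟨m, hm⟩ := hodd
        have hqfix : ∀ b : B, q • b = b := fun b => by
          have h1 : q ^ (2 * m + 1) = 1 := hm ▸ pow_orderOf_eq_one q
          have h2 : ∀ j : ℕ, (q ^ 2) ^ j • b = b := fun j => by
            induction j with
            | zero => simp
            | succ j ihj => rw [pow_succ, mul_smul, hq2, ihj]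
          calc q • b = q • ((q ^ 2) ^ m • b) := by rw [h2]
            _ = b := by rw [smul_smul, ← pow_mul, ← pow_succ', h1, one_smul]
        have := key ⟨a₀, ha₀⟩
        rw [hqfix] at this
        tauto
    · push_neg at htr
      obtain ⟨a₁, ha₁⟩ := htr
      let O : SubMulAction P α :=
        { carrier := MulAction.orbit P a₀
          smul_mem' := fun g _ ha => MulAction.mem_orbit_of_mem_orbit g ha }
      let O' : SubMulAction P α :=
        { carrier := (MulAction.orbit P a₀)ᶜ
          smul_mem' := fun g a ha hmem => ha (by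
            simpa using MulAction.mem_orbit_of_mem_orbit g⁻¹ hmem) }
      have h1 : Nat.card O < n := by
        rw [← hn]
        exact Finite.card_subtype_lt (p := fun a : α => a ∈ O) (x := a₁) (fun h => by
          obtain ⟨g, hg⟩ := h; exact ha₁ g hg)
      have h2 : Nat.card O' < n := by
        rw [← hn]
        exact Finite.card_subtype_lt (p := fun a : α => a ∈ O') (x := a₀) (fun h => h (MulAction.mem_orbit_self _))
      obtain ⟨S₁, hS₁⟩ := ih _ h1 P O hP rfl
      obtain ⟨S₂, hS₂⟩ := ih _ h2 P O' hP rfl
      refine ⟨Subtype.val '' S₁ ∪ Subtype.val '' S₂, fun g hg a => ?_⟩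
      have e1 : ∀ b : O, (b : α) ∈ Subtype.val '' S₁ ∪ Subtype.val '' S₂ ↔ b ∈ S₁ := fun b => by
        constructor
        · rintro (⟨c, hc, hcb⟩ | ⟨c, -, hcb⟩)
          · rwa [← Subtype.ext hcb]
          · exact absurd b.2 (hcb ▸ c.2)
        · exact fun hb => Or.inl ⟨b, hb, rfl⟩
      have e2 : ∀ b : O', (b : α) ∈ Subtype.val '' S₁ ∪ Subtype.val '' S₂ ↔ b ∈ S₂ := fun b => by
        constructor
        · rintro (⟨c, -, hcb⟩ | ⟨c, hc, hcb⟩)
          · exact absurd (hcb ▸ c.2) b.2
          · rwa [← Subtype.ext hcb]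
        · exact fun hb => Or.inr ⟨b, hb, rfl⟩
      by_cases ha : a ∈ MulAction.orbit P a₀
      · exact congrArg Subtype.val (hS₁ g (fun b => by rw [← e1, ← e1]; exact hg b) ⟨a, ha⟩)
      · exact congrArg Subtype.val (hS₂ g (fun b => by rw [← e2, ← e2]; exact hg b) ⟨a, ha⟩)

theorem exists_distinguishing_subset {p : ℕ} [Fact p.Prime] (hp2 : p ≠ 2) {P : Type u} [Group P] [Finite P]
    (hP : IsPGroup p P) (α : Type v) [Finite α] [MulAction P α] :
    ∃ S : Set α, ∀ g : P, (∀ a, a ∈ S ↔ g • a ∈ S) → ∀ a : α, g • a = a :=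
  exists_distinguishing_subset_aux hp2 _ P α hP rfl

end Cfsg.Agent.Lib.AvoidConj
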