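import Cfsg.Agent.Lib.AvoidConj.Tools
import Cfsg.Agent.Lib.AvoidConj.Subsets

/-!
The imprimitive case: a noncyclic elementary abelian normal `p`-subgroup is present.
-/

set_option autoImplicit false

namespace Cfsg.Agent.Lib.AvoidConj

universe u v

/-- The avoidance statement for modules of order less than `n`. -/
def AvoidBelow (p n : ℕ) : Prop :=
  ∀ (G : Type u) [Group G] [Finite G] (V : Type v) [AddCommGroup V] [Finite V]
    (ρ : G →* AddMonoid.End V) (P : Subgroup G), P.Normal → IsPGroup p P → p.Coprime (Nat.card V) →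
    Nat.card V < n → ∀ x ∈ P, (∃ v, ρ x v ≠ v) → ∃ v : V, ∀ g : G, ρ (g * x * g⁻¹) v ≠ v

variable {G : Type u} [Group G] [Finite G] {V : Type v} [AddCommGroup V] [Finite V]
  (ρ : G →* AddMonoid.End V) {p : ℕ} [hp : Fact p.Prime]

theorem sum_range_pow_fixed {y : G} (hy : y ^ p = 1) (v : V) :
    ρ y (∑ k ∈ Finset.range p, ρ (y ^ k) v) = ∑ k ∈ Finset.range p, ρ (y ^ k) v := by
  rw [map_sum]
  have h : ∀ k, ρ y (ρ (y ^ k) v) = ρ (y ^ (k + 1)) v := fun k => by rw [← rho_mul, pow_succ']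
  simp only [h]
  have h1 := Finset.sum_range_succ' (fun k => ρ (y ^ k) v) p
  have h2 := Finset.sum_range_succ (fun k => ρ (y ^ k) v) p
  rw [hy] at h2
  rw [h2, pow_zero] at h1
  exact add_right_cancel h1.symm

/-- A plane of order `p ^ 2` has a non-identity element with a nonzero fixed vector. -/
theorem exists_fixed_in_plane (hcop : p.Coprime (Nat.card V)) {b c : G} (hbc : Commute b c)
    (hb : b ^ p = 1) (hc : c ^ p = 1) (hc1 : c ≠ 1) (hind : b ∉ Subgroup.zpowers c)
    {v : V} (hv : v ≠ 0) :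
    ∃ y ∈ Subgroup.closure ({b, c} : Set G), y ≠ 1 ∧ ∃ w : V, w ≠ 0 ∧ ρ y w = w := by
  by_contra hcon
  have hb' : b ∈ Subgroup.closure ({b, c} : Set G) := Subgroup.subset_closure (by simp)
  have hc' : c ∈ Subgroup.closure ({b, c} : Set G) := Subgroup.subset_closure (by simp)
  have hz : ∀ y ∈ Subgroup.closure ({b, c} : Set G), y ≠ 1 → y ^ p = 1 →
      ∑ k ∈ Finset.range p, ρ (y ^ k) v = 0 := fun y hy hy1 hyp => by
    by_contra hne
    exact hcon ⟨y, hy, hy1, _, hne, sum_range_pow_fixed ρ hyp v⟩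
  have hid := line_identity ρ hbc hb hc v
  rw [hz c hc' hc1 hc] at hid
  have h1 : ∀ i ∈ Finset.range p, ∑ j ∈ Finset.range p, ρ ((b * c ^ i) ^ j) v = 0 := fun i _ => by
    refine hz _ (mul_mem hb' (pow_mem hc' i)) (fun h => hind ?_) ?_
    · rw [mul_eq_one_iff_eq_inv.1 h]
      exact inv_mem (pow_mem (Subgroup.mem_zpowers c) i)
    · rw [(hbc.pow_right i).mul_pow, hb, ← pow_mul, mul_comm i p, pow_mul, hc, one_pow, one_mul]
  rw [Finset.sum_eq_zero h1] at hid
  simp only [map_zero, Finset.sum_const_zero, add_zero, zero_add] at hid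
  exact hv (nsmul_cancel_of_coprime hcop hid.symm)

/-- The imprimitive case. -/
theorem avoid_of_noncyclic_normal (hp2 : p ≠ 2) (IH : AvoidBelow.{u, v} p (Nat.card V))
    (hinj : ∀ g : G, ρ g = 1 → g = 1)
    (hirr : ∀ W : AddSubgroup V, (∀ g, ∀ v ∈ W, ρ g v ∈ W) → W = ⊥ ∨ W = ⊤)
    (hcop : p.Coprime (Nat.card V)) (P : Subgroup G) [hPn : P.Normal] (hP : IsPGroup p P)
    (B : Subgroup G) [hBn : B.Normal] (hBP : B ≤ P) (hBc : ∀ a ∈ B, ∀ b ∈ B, a * b = b * a)
    (hBe : ∀ a ∈ B, a ^ p = 1) (hBcard : p < Nat.card B) (x : G) (hxP : x ∈ P) (hx : x ≠ 1) :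
    ∃ v : V, ∀ g : G, ρ (g * x * g⁻¹) v ≠ v := by
  classical
  obtain ⟨v₀, hv₀⟩ : ∃ v : V, ρ x v ≠ v := by
    by_contra h
    push_neg at h
    exact hx (hinj x (AddMonoidHom.ext fun v => h v))
  have hnt : ∃ v : V, v ≠ 0 := ⟨v₀, fun h => hv₀ (by rw [h, map_zero])⟩
  -- the index type
  let good : Subgroup G → Prop := fun H =>
    H ≤ B ∧ fixedOf ρ (H : Set G) ≠ ⊥ ∧ ∀ K : Subgroup G, K ≤ B → fixedOf ρ (K : Set G) ≠ ⊥ → H ≤ K → K = H
  have hmemconj : ∀ (g : G) (H : Subgroup G) (v : V),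
      v ∈ fixedOf ρ (H.map (MulAut.conj g).toMonoidHom : Set G) ↔ ρ g⁻¹ v ∈ fixedOf ρ (H : Set G) := by
    intro g H v
    constructor
    · intro h k hk
      have h1 := h (g * k * g⁻¹) ⟨k, hk, rfl⟩
      rw [rho_mul, rho_mul] at h1
      have h2 := congrArg (ρ g⁻¹) h1
      rwa [rho_inv_cancel] at h2
    · rintro h _ ⟨k, hk, rfl⟩
      show ρ (g * k * g⁻¹) v = v
      rw [rho_mul, rho_mul, h k hk, rho_cancel_inv]
  have hmapB : ∀ (g : G) (H : Subgroup G), H ≤ B → H.map (MulAut.conj g).toMonoidHom ≤ B := by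
    rintro g H h _ ⟨k, hk, rfl⟩
    exact hBn.conj_mem k (h hk) g
  have hmapmap : ∀ (g h : G) (H : Subgroup G),
      (H.map (MulAut.conj h).toMonoidHom).map (MulAut.conj g).toMonoidHom =
        H.map (MulAut.conj (g * h)).toMonoidHom := fun g h H => by
    rw [Subgroup.map_map]; congr 1; ext y; simp [mul_assoc]
  have hmapone : ∀ H : Subgroup G, H.map (MulAut.conj (1 : G)).toMonoidHom = H := fun H => by
    ext y; simp [Subgroup.mem_map]
  have hne : ∀ (g : G) (H : Subgroup G), fixedOf ρ (H : Set G) ≠ ⊥ →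
      fixedOf ρ (H.map (MulAut.conj g).toMonoidHom : Set G) ≠ ⊥ := fun g H h => by
    obtain ⟨v, hv, hv0⟩ := (AddSubgroup.bot_or_exists_ne_zero _).resolve_left h
    intro hb
    have : ρ g v ∈ fixedOf ρ (H.map (MulAut.conj g).toMonoidHom : Set G) :=
      (hmemconj g H _).2 (by rwa [rho_inv_cancel])
    rw [hb, AddSubgroup.mem_bot] at this
    apply hv0
    rw [← rho_inv_cancel ρ g v, this, map_zero]
  have hgood : ∀ (g : G) (H : Subgroup G), good H → good (H.map (MulAut.conj g).toMonoidHom) := by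
    rintro g H ⟨h1, h2, h3⟩
    refine ⟨hmapB g H h1, hne g H h2, fun K hK hK' hle => ?_⟩
    have hle' : H ≤ K.map (MulAut.conj g⁻¹).toMonoidHom := by
      have := Subgroup.map_mono (f := (MulAut.conj g⁻¹).toMonoidHom) hle
      rwa [hmapmap, inv_mul_cancel, hmapone] at this
    have := h3 _ (hmapB g⁻¹ K hK) (hne g⁻¹ K hK') hle'
    rw [← this, hmapmap, mul_inv_cancel, hmapone]
  let ι := {H : Subgroup G // good H}
  letI act : MulAction G ι :=
    { smul := fun g H => ⟨H.1.map (MulAut.conj g).toMonoidHom, hgood g H.1 H.2⟩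
      one_smul := fun H => Subtype.ext (hmapone H.1)
      mul_smul := fun g h H => Subtype.ext (hmapmap g h H.1).symm }
  let W : ι → AddSubgroup V := fun H => fixedOf ρ (H.1 : Set G)
  have hWmove : ∀ (g : G) (H : ι) (v : V), v ∈ W H → ρ g v ∈ W (g • H) := fun g H v hv =>
    (hmemconj g H.1 _).2 (by rwa [rho_inv_cancel])
  -- every vector fixed by `B` is zero
  have hBfix : fixedOf ρ (B : Set G) = ⊥ := by
    rcases hirr (fixedOf ρ (B : Set G)) (fun g v hv k hk => by
        have h := hv _ (hBn.conj_mem k hk g⁻¹)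
        rw [rho_mul, rho_mul, inv_inv] at h
        have h2 := congrArg (ρ g) h
        rwa [rho_cancel_inv] at h2) with h | h
    · exact h
    · exfalso
      have hB1 : B = ⊥ := (Subgroup.eq_bot_iff_forall _).2 fun k hk =>
        hinj k (AddMonoidHom.ext fun v => (h ▸ AddSubgroup.mem_top v : v ∈ fixedOf ρ (B : Set G)) k hk)
      rw [hB1, Subgroup.card_bot] at hBcard
      exact absurd hBcard (by have := hp.out.one_lt; omega)
  -- independence
  have hWB : ∀ (H : ι) (v : V), v ∈ W H → ∀ k ∈ B, ρ k v ∈ W H := fun H v hv k hk h hh => by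
    rw [← rho_mul, hBc h (H.2.1 hh) k hk, rho_mul, hv h hh]
  have hnorm : ∀ (H H' : ι), H ≠ H' → ∀ v ∈ W H', normOp ρ H.1 v = 0 := by
    intro H H' hHH v hv
    haveI := Fintype.ofFinite H.1
    have h1 : normOp ρ H.1 v ∈ W H' := by
      rw [normOp_eq_sum]
      exact sum_mem fun k _ => hWB H' v hv _ (H.2.1 k.2)
    have h2 : normOp ρ H.1 v ∈ fixedOf ρ ((H.1 ⊔ H'.1 : Subgroup G) : Set G) := by
      intro k hk
      let F : Subgroup G :=
        { carrier := {k | ρ k (normOp ρ H.1 v) = normOp ρ H.1 v}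
          mul_mem' := fun {a b} ha hb => by
            show ρ (a * b) _ = _
            rw [rho_mul, hb, ha]
          one_mem' := rho_one ρ _
          inv_mem' := fun {a} ha => by
            show ρ a⁻¹ _ = _
            conv_lhs => rw [← ha]
            rw [rho_inv_cancel] }
      have hle : H.1 ⊔ H'.1 ≤ F := sup_le (fun k hk => normOp_fixed ρ H.1 hk v) (fun k hk => h1 k hk)
      exact hle hk
    by_contra hne0
    have hbot : fixedOf ρ ((H.1 ⊔ H'.1 : Subgroup G) : Set G) ≠ ⊥ := fun hb => hne0 (by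
      rw [hb, AddSubgroup.mem_bot] at h2; exact h2)
    have e1 := H.2.2.2 _ (sup_le H.2.1 H'.2.1) hbot le_sup_left
    have e2 := H'.2.2.2 _ (sup_le H.2.1 H'.2.1) hbot le_sup_right
    exact hHH (Subtype.ext (e1.symm.trans e2))
  haveI : Finite ι := Subtype.finite
  haveI := Fintype.ofFinite ι
  have hcopB : ∀ H : ι, (Nat.card H.1).Coprime (Nat.card V) := fun H => by
    obtain ⟨k, hk⟩ := IsPGroup.iff_card.1 (hP.to_le (H.2.1.trans hBP))
    rw [hk]; exact hcop.pow_left k
  have hindep : ∀ u : ι → V, (∀ H, u H ∈ W H) → ∀ u' : ι → V, (∀ H, u' H ∈ W H) →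
      ∑ H, u H = ∑ H, u' H → u = u' := by
    intro u hu u' hu' hs
    funext H
    have key : ∀ u : ι → V, (∀ H, u H ∈ W H) →
        normOp ρ H.1 (∑ K, u K) = Nat.card H.1 • u H := by
      intro u hu
      haveI := Fintype.ofFinite H.1
      rw [normOp_eq_sum]
      simp only [map_sum]
      rw [Finset.sum_comm, Finset.sum_eq_single H]
      · rw [← normOp_eq_sum, normOp_of_fixed ρ H.1 _ (fun h hh => hu H h hh)]
      · intro K _ hK
        rw [← normOp_eq_sum]
        exact hnorm H K (Ne.symm hK) _ (hu K)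
      · intro h; exact absurd (Finset.mem_univ H) h
    have h1 := key u hu
    rw [hs, key u' hu'] at h1
    have h2 : Nat.card H.1 • (u H - u' H) = 0 := by rw [nsmul_sub, h1, sub_self]
    exact sub_eq_zero.1 (nsmul_cancel_of_coprime (hcopB H) h2)
  -- the action of an element on the coordinates
  have hperm : ∀ (g : G) (u : ι → V), (∀ H, u H ∈ W H) → ρ g (∑ H, u H) = ∑ H, u H →
      ∀ H, ρ g (u H) = u (g • H) := by
    intro g u hu hg H
    let u' : ι → V := fun K => ρ g (u (g⁻¹ • K))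
    have hu' : ∀ K, u' K ∈ W K := fun K => by
      have := hWmove g (g⁻¹ • K) _ (hu _)
      rwa [smul_inv_smul] at this
    have hs : ∑ K, u' K = ∑ K, u K := by
      rw [← hg, map_sum]
      exact Equiv.sum_comp (MulAction.toPerm g⁻¹) (fun K => ρ g (u K))
    have := congrFun (hindep u' hu' u hu hs) (g • H)
    simpa [u', inv_smul_smul] using this
  -- the blocks are proper
  have hWlt : ∀ H : ι, Nat.card (W H) < Nat.card V := by
    intro H
    have hHbot : H.1 ≠ ⊥ := by
      intro hb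
      obtain ⟨v, hv⟩ := hnt
      obtain ⟨b, hb', hb1⟩ : ∃ b ∈ B, b ≠ 1 := by
        rcases B.bot_or_exists_ne_one with h | h
        · exfalso; rw [h, Subgroup.card_bot] at hBcard; have := hp.out.one_lt; omega
        · exact h
      obtain ⟨c, hcB, hcb⟩ : ∃ c ∈ B, c ∉ Subgroup.zpowers b := by
        by_contra hcon
        push_neg at hcon
        have h1 : Nat.card B ≤ Nat.card (Subgroup.zpowers b) :=
          Nat.le_of_dvd Nat.card_pos (Subgroup.card_dvd_of_le hcon)
        have h2 : orderOf b ≤ p := orderOf_le_of_pow_eq_one hp.out.pos (hBe b hb')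
        rw [Nat.card_zpowers] at h1
        omega
      obtain ⟨y, hy, hy1, w, hw, hyw⟩ := exists_fixed_in_plane ρ hcop (b := c) (c := b)
        (hBc c hcB b hb') (hBe c hcB) (hBe b hb') hb1 hcb hv
      have hyB : y ∈ B := ((Subgroup.closure_le (K := B)).2 (by
        intro z hz; rcases hz with rfl | rfl
        · exact hcB
        · exact hb')) hy
      have h' := H.2.2.2 (Subgroup.zpowers y) (Subgroup.zpowers_le.2 hyB) (fun h => hw (by
        have : w ∈ fixedOf ρ ((Subgroup.zpowers y : Subgroup G) : Set G) :=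
          fun k hk => fixed_zpowers ρ hyw hk
        rwa [h, AddSubgroup.mem_bot] at this)) (hb ▸ bot_le)
      exact hy1 (Subgroup.zpowers_eq_bot.1 (h'.trans hb))
    obtain ⟨k, hk, hk1⟩ := (H.1.bot_or_exists_ne_one).resolve_left hHbot
    obtain ⟨v, hv⟩ : ∃ v, v ∉ W H := by
      by_contra hc
      push_neg at hc
      exact hk1 (hinj k (AddMonoidHom.ext fun v => hc v k hk))
    exact Finite.card_subtype_lt (p := fun v : V => v ∈ W H) hv
  have hWnz : ∀ H : ι, ∃ w ∈ W H, w ≠ 0 := fun H =>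
    (AddSubgroup.bot_or_exists_ne_zero _).resolve_left H.2.2.1
  -- the kernel of the action on the blocks
  let K : Subgroup G := (MulAction.toPermHom G ι).ker
  have hKmem : ∀ g, g ∈ K ↔ ∀ H : ι, g • H = H := fun g => by
    simp only [K, MonoidHom.mem_ker, Equiv.ext_iff]; rfl
  by_cases hxK : x ∈ K
  · -- `x` fixes every block
    obtain ⟨H₀, hH₀⟩ : ∃ H : ι, ∃ w ∈ W H, ρ x w ≠ w ∨ ∃ g : G, ρ (g * x * g⁻¹) w ≠ w := by
      by_contra hcon
      push_neg at hcon
      obtain ⟨H⟩ : Nonempty ι := by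
        obtain ⟨v, hv⟩ := hnt
        have hbot : fixedOf ρ ((⊥ : Subgroup G) : Set G) ≠ ⊥ := fun hb => hv (by
          have : v ∈ fixedOf ρ ((⊥ : Subgroup G) : Set G) := fun k hk => by
            rw [Subgroup.mem_bot.1 hk, rho_one]
          rwa [hb, AddSubgroup.mem_bot] at this)
        obtain ⟨M, hM⟩ := (Set.toFinite {H : Subgroup G | H ≤ B ∧ fixedOf ρ (H : Set G) ≠ ⊥}).exists_maximal
          ⟨⊥, bot_le, hbot⟩
        exact ⟨⟨M, hM.1.1, hM.1.2, fun L hL hL' hle => le_antisymm (hM.2 ⟨hL, hL'⟩ hle) hle⟩⟩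
      -- every vector of every block is fixed by `x`, so `x` acts trivially
      let T : AddSubgroup V := ⨆ H : ι, W H
      have hT : T = ⊤ := by
        refine (hirr T (fun g v hv => ?_)).resolve_left (fun hb => ?_)
        · induction hv using AddSubgroup.iSup_induction' with
          | hp i w hw => exact le_iSup W (g • i) (hWmove g i w hw)
          | h1 => rw [map_zero]; exact zero_mem _
          | hadd a b _ _ ha hb => rw [map_add]; exact add_mem ha hb
        · obtain ⟨w, hw, hw0⟩ := hWnz H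
          have : w ∈ T := le_iSup W H hw
          rw [hb, AddSubgroup.mem_bot] at this
          exact hw0 this
      apply hv₀
      have hfix : T ≤ fixedOf ρ ({x} : Set G) := iSup_le fun H' v hv g hg => by
        rw [Set.mem_singleton_iff.1 hg]; exact (hcon H' v hv).1
      exact hfix (hT ▸ AddSubgroup.mem_top v₀) x rfl
    -- replace `H₀` by a block on which `x` acts nontrivially
    obtain ⟨H₁, w₁, hw₁, hxw₁⟩ : ∃ H : ι, ∃ w ∈ W H, ρ x w ≠ w := by
      obtain ⟨w, hw, h | ⟨g, hg⟩⟩ := hH₀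
      · exact ⟨H₀, w, hw, h⟩
      · refine ⟨g⁻¹ • H₀, ρ g⁻¹ w, hWmove _ _ _ hw, fun h => hg ?_⟩
        rw [rho_mul, rho_mul, h, rho_cancel_inv]
    -- the stabiliser of the block and its action
    let G₀ : Subgroup G := MulAction.stabilizer G H₁
    have hstab : ∀ g : G₀, ∀ v ∈ W H₁, ρ (g : G) v ∈ W H₁ := fun g v hv => by
      have := hWmove (g : G) H₁ v hv
      rwa [MulAction.mem_stabilizer_iff.1 g.2] at this
    let ρ₀ : G₀ →* AddMonoid.End (W H₁) :=
      { toFun := fun g =>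
          { toFun := fun v => ⟨ρ (g : G) (v : V), hstab g v v.2⟩
            map_zero' := Subtype.ext (map_zero _)
            map_add' := fun a b => Subtype.ext (map_add (ρ (g : G)) (a : V) (b : V)) }
        map_one' := AddMonoidHom.ext fun v => Subtype.ext (rho_one ρ (v : V))
        map_mul' := fun g h => AddMonoidHom.ext fun v => Subtype.ext (rho_mul ρ (g : G) (h : G) (v : V)) }
    have hxG₀ : x ∈ G₀ := MulAction.mem_stabilizer_iff.2 ((hKmem x).1 hxK H₁)
    have hcop₀ : p.Coprime (Nat.card (W H₁)) :=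
      hcop.of_dvd_right (AddSubgroup.card_addSubgroup_dvd_card _)
    obtain ⟨w, hw⟩ := IH G₀ (W H₁) ρ₀ (P.subgroupOf G₀) inferInstance
      (hP.comap_subtype) hcop₀ (hWlt H₁) ⟨x, hxG₀⟩ hxP
      ⟨⟨w₁, hw₁⟩, fun h => hxw₁ (congrArg Subtype.val h)⟩
    -- transport along the orbit
    let u : ι → V := fun H => if h : ∃ g : G, g • H₁ = H then ρ h.choose (w : V) else 0
    have hu : ∀ H, u H ∈ W H := fun H => by
      simp only [u]
      split_ifs with h
      · have := hWmove h.choose H₁ _ w.2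
        rwa [h.choose_spec] at this
      · exact zero_mem _
    refine ⟨∑ H, u H, fun g hg => ?_⟩
    have hgK : g * x * g⁻¹ ∈ K := (MonoidHom.normal_ker _).conj_mem x hxK g
    have h1 := hperm _ u hu hg (g • H₁)
    rw [(hKmem _).1 hgK] at h1
    have hex : ∃ k : G, k • H₁ = g • H₁ := ⟨g, rfl⟩
    simp only [u, dif_pos hex] at h1
    set k := hex.choose with hk
    have hkg : g⁻¹ * k ∈ G₀ := MulAction.mem_stabilizer_iff.2 (by
      rw [mul_smul, hex.choose_spec, inv_smul_smul])
    apply hw (⟨g⁻¹ * k, hkg⟩⁻¹ : G₀)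
    apply Subtype.ext
    show ρ (((g⁻¹ * k)⁻¹ * x * ((g⁻¹ * k)⁻¹)⁻¹ : G)) (w : V) = (w : V)
    have h2 := congrArg (ρ k⁻¹) h1
    rw [rho_inv_cancel, ← rho_mul, ← rho_mul] at h2
    rw [show (g⁻¹ * k)⁻¹ * x * ((g⁻¹ * k)⁻¹)⁻¹ = k⁻¹ * (g * x * g⁻¹ * k) by group]
    simpa [mul_assoc] using h2
  · -- `x` moves some block
    obtain ⟨S, hS⟩ := exists_distinguishing_subset hp2 hP ι
    choose w hwW hw0 using hWnz
    let u : ι → V := fun H => if H ∈ S then w H else 0
    have hu : ∀ H, u H ∈ W H := fun H => by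
      simp only [u]
      split_ifs
      · exact hwW H
      · exact zero_mem _
    refine ⟨∑ H, u H, fun g hg => ?_⟩
    set y := g * x * g⁻¹ with hy
    have hyP : y ∈ P := hPn.conj_mem x hxP g
    have hiff : ∀ H : ι, H ∈ S ↔ y • H ∈ S := fun H => by
      have h1 := hperm y u hu hg H
      simp only [u] at h1
      by_cases h : H ∈ S <;> by_cases h' : y • H ∈ S <;> simp only [h, h', if_true, if_false] at h1 ⊢
      · exfalso
        apply hw0 H
        rw [← rho_inv_cancel ρ y (w H), h1, map_zero]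
      · exfalso
        rw [map_zero] at h1
        exact hw0 _ h1.symm
    have hfix := hS ⟨y, hyP⟩ hiff
    have hyK : y ∈ K := (hKmem y).2 hfix
    apply hxK
    have h3 := (MonoidHom.normal_ker (MulAction.toPermHom G ι)).conj_mem y hyK g⁻¹
    show x ∈ (MulAction.toPermHom G ι).ker
    have e : g⁻¹ * y * g⁻¹⁻¹ = x := by rw [hy]; group
    rwa [e] at h3

end Cfsg.Agent.Lib.AvoidConj
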