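import Cfsg.Agent.Lib.AvoidConj.Split

/-!
In a group acting faithfully and coprimely on a finite abelian group, every non-trivial element of a normal
`p`-subgroup (`p` odd) avoids some vector with all its conjugates.
-/

set_option autoImplicit false

namespace Cfsg.Agent.Lib.AvoidConj

universe u v

variable {G : Type u} [Group G] [Finite G] {V : Type v} [AddCommGroup V] [Finite V]
  (ρ : G →* AddMonoid.End V) {p : ℕ} [hp : Fact p.Prime]

theorem succ_mul_le_pow (q : ℕ) (hq : 2 ≤ q) : ∀ n : ℕ, 1 ≤ n → q * n ≤ q ^ n := by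
  intro n hn
  induction n with
  | zero => omega
  | succ n ih =>
    rcases Nat.eq_zero_or_pos n with rfl | h
    · simp
    · have h1 := ih h
      have h2 : q * n * 2 ≤ q ^ n * q := Nat.mul_le_mul h1 hq
      have h3 : q * (n + 1) ≤ q * n * 2 := by nlinarith
      rw [pow_succ]; omega

/-- The primitive case. -/
theorem avoid_of_cyclic_normal (hp2 : p ≠ 2) (hinj : ∀ g : G, ρ g = 1 → g = 1)
    (hirr : ∀ W : AddSubgroup V, (∀ g, ∀ v ∈ W, ρ g v ∈ W) → W = ⊥ ∨ W = ⊤)
    (hcop : p.Coprime (Nat.card V)) (P : Subgroup G) [hPn : P.Normal] (hP : IsPGroup p P)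
    (hcyc : ∀ B : Subgroup G, B.Normal → B ≤ P → (∀ a ∈ B, ∀ b ∈ B, a * b = b * a) →
      (∀ a ∈ B, a ^ p = 1) → Nat.card B ≤ p)
    (x : G) (hxP : x ∈ P) (hx : x ≠ 1) (hxp : x ^ p = 1) :
    ∃ v : V, ∀ g : G, ρ (g * x * g⁻¹) v ≠ v := by
  classical
  have hP1 : P ≠ ⊥ := fun h => hx (by rw [h, Subgroup.mem_bot] at hxP; exact hxP)
  obtain ⟨hZcard, hcent, hord⟩ := order_p_structure hp2 P hP hP1 hcyc
  set Z := centralOmega p P with hZdef
  set E := secondOmega p hp2 P with hEdef
  haveI hEn : E.Normal := secondOmega_normal hp2 P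
  have hZE : Z ≤ E := centralOmega_le_secondOmega hp2 P
  -- the elements of `Z` have no fixed points
  have hfree : ∀ z ∈ Z, z ≠ 1 → ∀ v : V, ρ z v = v → v = 0 := by
    intro z hz hz1 v hv
    have hgen : Subgroup.zpowers z = Z := Subgroup.eq_of_le_of_card_ge (Subgroup.zpowers_le.2 hz) (by
      rw [hZcard, Nat.card_zpowers, orderOf_eq_prime hz.2.1 hz1])
    have hvZ : v ∈ fixedOf ρ (Z : Set G) := fun k hk => fixed_zpowers ρ hv (by rw [hgen]; exact hk)
    rcases hirr (fixedOf ρ (Z : Set G)) (fun g w hw k hk => by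
        have h := hw _ ((centralOmega_normal P).conj_mem k hk g⁻¹)
        rw [rho_mul, rho_mul, inv_inv] at h
        have h2 := congrArg (ρ g) h
        rwa [rho_cancel_inv] at h2) with h | h
    · rw [h, AddSubgroup.mem_bot] at hvZ; exact hvZ
    · exfalso
      exact hz1 (hinj z (AddMonoidHom.ext fun w =>
        (h ▸ AddSubgroup.mem_top w : w ∈ fixedOf ρ (Z : Set G)) z hz))
  by_cases hxZ : x ∈ Z
  · obtain ⟨v, hv⟩ : ∃ v : V, ρ x v ≠ v := by
      by_contra h
      push_neg at h
      exact hx (hinj x (AddMonoidHom.ext fun v => h v))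
    refine ⟨v, fun g hg => hv ?_⟩
    have hne : g * x * g⁻¹ ≠ 1 := fun h => hx (conj_eq_one_iff.1 h)
    have h0 := hfree _ ((centralOmega_normal P).conj_mem x hxZ g) hne v hg
    rw [h0, map_zero]
  have hxE : x ∈ E := hord x hxP hxp
  have hexp : ∀ a ∈ E, a ^ p = 1 := fun a ha => ha.2.1
  have hcomm : ∀ a ∈ E, ∀ b ∈ E, a * b * a⁻¹ * b⁻¹ ∈ Z := fun a ha b hb => hb.2.2 a ha.1
  have hcentE : ∀ a ∈ E, ∀ z ∈ Z, a * z = z * a := fun a ha z hz => hz.2.2 a ha.1
  -- the fixed points of every element of `E` outside `Z`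
  have hfix : ∀ y ∈ E, y ∉ Z →
      Nat.card V = Nat.card (fixedOf ρ ({y} : Set G)) ^ p := by
    intro y hy hyZ
    obtain ⟨u, hu, huy⟩ : ∃ u ∈ E, y * u ≠ u * y := by
      by_contra h
      push_neg at h
      exact hyZ (hcent y hy h)
    set e := u * y * u⁻¹ * y⁻¹ with he
    have heZ : e ∈ Z := hcomm u hu y hy
    have he1 : e ≠ 1 := fun h => huy (by
      have : u * y = (u * y * u⁻¹ * y⁻¹) * (y * u) := by group
      rw [← he, h, one_mul] at this; exact this.symm)
    have h := card_eq_fixed_pow ρ hcop (⊤ : AddSubgroup V) (u := u) (y := y) (e := e)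
      (fun w _ => trivial) (fun w _ => trivial) (fun w _ => trivial) (hcentE y hy e heZ) (hcentE u hu e heZ)
      (by rw [hcentE y hy e heZ, he]; group) (hexp y hy) (hexp e (hZE heZ)) (hfree e heZ he1)
    rwa [top_inf_eq, Nat.card_congr AddSubgroup.topEquiv.toEquiv] at h
  set c := Nat.card (fixedOf ρ ({x} : Set G)) with hc
  have hVc : Nat.card V = c ^ p := hfix x hxE hxZ
  have hceq : ∀ y ∈ E, y ∉ Z → Nat.card (fixedOf ρ ({y} : Set G)) = c := fun y hy hyZ =>
    Nat.pow_left_injective hp.out.ne_zero ((hfix y hy hyZ).symm.trans hVc)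
  obtain ⟨u, hu, hux⟩ : ∃ u ∈ E, x * u ≠ u * x := by
    by_contra h
    push_neg at h
    exact hxZ (hcent x hxE h)
  -- a lower bound for `c` and an upper bound for `|E|`
  let ψ : E →* Z :=
    { toFun := fun a => ⟨(a : G) * x * (a : G)⁻¹ * x⁻¹, hcomm a a.2 x hxE⟩
      map_one' := Subtype.ext (by simp)
      map_mul' := fun a b => by
        apply Subtype.ext
        show (a : G) * b * x * ((a : G) * b)⁻¹ * x⁻¹ =
          ((a : G) * x * (a : G)⁻¹ * x⁻¹) * ((b : G) * x * (b : G)⁻¹ * x⁻¹)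
        set d := (b : G) * x * (b : G)⁻¹ * x⁻¹ with hd
        have hdZ : d ∈ Z := hcomm b b.2 x hxE
        have h1 : (a : G) * b * x * ((a : G) * b)⁻¹ * x⁻¹ =
            ((a : G) * d * (a : G)⁻¹) * ((a : G) * x * (a : G)⁻¹ * x⁻¹) := by rw [hd]; group
        rw [h1, hcentE a a.2 d hdZ, mul_inv_cancel_right]
        exact (hcentE _ (hZE (hcomm a a.2 x hxE)) d hdZ).symm }
  let C : Subgroup G := ψ.ker.map E.subtype
  have hCmem : ∀ a : G, a ∈ C → a ∈ E ∧ a * x = x * a := by
    rintro _ ⟨b, hb, rfl⟩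
    have h := congrArg Subtype.val (MonoidHom.mem_ker.1 hb)
    change (b : G) * x * (b : G)⁻¹ * x⁻¹ = 1 at h
    exact ⟨b.2, by rw [mul_inv_eq_one, mul_inv_eq_iff_eq_mul] at h; exact h⟩
  have hCZ : Z ≤ C := fun z hz => ⟨⟨z, hZE hz⟩, MonoidHom.mem_ker.2 (Subtype.ext (by
    show z * x * z⁻¹ * x⁻¹ = 1
    rw [← hcentE x hxE z hz]; group)), rfl⟩
  have hCcard : Nat.card E ≤ Nat.card C * p := by
    rw [Subgroup.card_map_of_injective E.subtype_injective, ← ψ.ker.card_mul_index, Subgroup.index_ker]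
    refine Nat.mul_le_mul_left _ ?_
    exact (Subgroup.card_le_card_group _).trans_eq hZcard
  obtain ⟨v₁, hv₁⟩ : ∃ v : V, v ≠ 0 := by
    by_contra h
    push_neg at h
    exact hx (hinj x (AddMonoidHom.ext fun v => (h (ρ x v)).trans (h v).symm))
  have hcW : fixedOf ρ ({x} : Set G) ≠ ⊥ := fun h => by
    rw [hc, h, AddSubgroup.card_bot, one_pow] at hVc
    haveI : Nontrivial V := ⟨⟨v₁, 0, hv₁⟩⟩
    have := Finite.one_lt_card (α := V)
    omega
  obtain ⟨A, n, hAC, hZA, hAab, hAcard, hAW⟩ := exists_abelian_bound ρ Z hcop hZcard hfree _ C rfl hCZ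
    (fun a ha => hexp a (hCmem a ha).1) (fun a ha b hb => hcomm a (hCmem a ha).1 b (hCmem b hb).1)
    (fun a ha z hz => hcentE a (hCmem a ha).1 z hz) (fixedOf ρ ({x} : Set G))
    (fun a ha w hw g hg => by
      rw [Set.mem_singleton_iff.1 hg, ← rho_mul, ← (hCmem a ha).2, rho_mul, hw x rfl]) hcW
  have hn : 1 ≤ n := by
    rcases n with _ | n
    · rw [zero_mul] at hAcard; have := Nat.card_pos (α := C); omega
    · omega
  -- the order of `A`
  let A' : Subgroup E := A.subgroupOf E
  have hAE : A ≤ E := fun a ha => (hCmem a (hAC ha)).1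
  haveI : A'.Normal := ⟨fun a ha g => by
    show ((g * a * g⁻¹ : E) : G) ∈ A
    have h := hcomm g g.2 (a : G) a.2
    have e : ((g * a * g⁻¹ : E) : G) = ((g : G) * a * (g : G)⁻¹ * (a : G)⁻¹) * a := by simp
    rw [e]
    exact mul_mem (hZA h) ha⟩
  let fa : A → (E ⧸ A' →* Z) := fun a =>
    QuotientGroup.lift A'
      { toFun := fun e => (⟨(e : G) * a * (e : G)⁻¹ * (a : G)⁻¹, hcomm e e.2 a (hAE a.2)⟩ : Z)
        map_one' := Subtype.ext (by simp)
        map_mul' := fun e b => by
          apply Subtype.ext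
          show (e : G) * b * (a : G) * ((e : G) * b)⁻¹ * (a : G)⁻¹ =
            ((e : G) * a * (e : G)⁻¹ * (a : G)⁻¹) * ((b : G) * a * (b : G)⁻¹ * (a : G)⁻¹)
          set d := (b : G) * a * (b : G)⁻¹ * (a : G)⁻¹ with hd
          have hdZ : d ∈ Z := hcomm b b.2 a (hAE a.2)
          have h1 : (e : G) * b * (a : G) * ((e : G) * b)⁻¹ * (a : G)⁻¹ =
              ((e : G) * d * (e : G)⁻¹) * ((e : G) * a * (e : G)⁻¹ * (a : G)⁻¹) := by rw [hd]; group
          rw [h1, hcentE e e.2 d hdZ, mul_inv_cancel_right]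
          exact (hcentE _ (hZE (hcomm e e.2 a (hAE a.2))) d hdZ).symm }
      (fun b hb => MonoidHom.mem_ker.2 (Subtype.ext (by
        show (b : G) * a * (b : G)⁻¹ * (a : G)⁻¹ = 1
        rw [hAab b hb a a.2]; group)))
  have hAle : Nat.card A ≤ Nat.card Z * A'.index := by
    have hinjA : Function.Injective (fun q : A ⧸ Z.subgroupOf A => fa q.out) := by
      intro q q' h
      rw [← QuotientGroup.out_eq' q, ← QuotientGroup.out_eq' q', QuotientGroup.eq]
      show ((q.out : G))⁻¹ * (q'.out : G) ∈ Z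
      refine hcent _ (mul_mem (inv_mem (hAE q.out.2)) (hAE q'.out.2)) fun e he => ?_
      have h1 : e * (q.out : G) * e⁻¹ * (q.out : G)⁻¹ = e * (q'.out : G) * e⁻¹ * (q'.out : G)⁻¹ :=
        congrArg Subtype.val (DFunLike.congr_fun h ((⟨e, he⟩ : E) : E ⧸ A'))
      set a := (q.out : G) with ha
      set b := (q'.out : G) with hb
      set d := e * b * e⁻¹ * b⁻¹ with hd
      have hdZ : d ∈ Z := hcomm e he b (hAE q'.out.2)
      have h2 : e * (a⁻¹ * b) * e⁻¹ = a⁻¹ * b := by
        have e1 : e * (a⁻¹ * b) * e⁻¹ = a⁻¹ * (e * a * e⁻¹ * a⁻¹)⁻¹ * (e * b * e⁻¹ * b⁻¹) * b := by group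
        rw [e1, ← hd, h1]; group
      calc a⁻¹ * b * e = e * (a⁻¹ * b) * e⁻¹ * e := by rw [h2]
        _ = e * (a⁻¹ * b) := by group
    haveI : Finite (E ⧸ A' →* Z) := Finite.of_injective (fun φ => (φ : E ⧸ A' → Z)) DFunLike.coe_injective
    have h1 := Nat.card_le_card_of_injective _ hinjA
    have h2 := card_hom_le_card hZcard _ (E ⧸ A') ((hP.to_le (fun e he => he.1 : E ≤ P)).to_quotient A') rfl
    have h3 := (Z.subgroupOf A).card_mul_index
    rw [Nat.card_congr (Subgroup.subgroupOfEquivOfLe hZA).toEquiv] at h3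
    rw [← h3]
    exact Nat.mul_le_mul_left _ (h1.trans h2)
  have hidx : Nat.card A * A'.index = Nat.card E := by
    rw [← A'.card_mul_index, Nat.card_congr (Subgroup.subgroupOfEquivOfLe hAE).toEquiv]
  have hidxle : A'.index ≤ n * p := by
    refine Nat.le_of_mul_le_mul_left (?_ : Nat.card A * A'.index ≤ Nat.card A * (n * p)) Nat.card_pos
    rw [hidx]
    refine hCcard.trans_eq ?_
    rw [hAcard]; ring
  have hEle : Nat.card E ≤ p * (n * p) * (n * p) := by
    rw [← hidx]
    refine Nat.mul_le_mul ?_ hidxle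
    refine hAle.trans ?_
    rw [hZcard]
    exact Nat.mul_le_mul_left _ hidxle
  -- counting
  by_contra hcon
  push_neg at hcon
  haveI := Fintype.ofFinite V
  haveI := Fintype.ofFinite G
  let D : Finset G := Finset.univ.filter (fun y => y ∈ E ∧ y ∉ Z)
  let V' : Finset V := Finset.univ.filter (fun v => v ≠ 0)
  have hV' : V'.card = Nat.card V - 1 := by
    simp only [V']
    rw [Nat.card_eq_fintype_card, Finset.filter_ne' Finset.univ (0 : V),
      Finset.card_erase_of_mem (Finset.mem_univ _), Finset.card_univ]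
  have hD : D.card + p = Nat.card E := by
    have h1 : D = (Finset.univ.filter (· ∈ E)) \ (Finset.univ.filter (· ∈ Z)) := by ext; simp [D]
    have h2 : ∀ H : Subgroup G, (Finset.univ.filter (· ∈ H)).card = Nat.card H := fun H => by
      rw [Nat.card_eq_fintype_card, Fintype.card_subtype]
    have h3 := Finset.card_sdiff_add_card_eq_card
      (show Finset.univ.filter (· ∈ Z) ⊆ Finset.univ.filter (· ∈ E) from fun y hy => by
        simp only [Finset.mem_filter, Finset.mem_univ, true_and] at hy ⊢; exact hZE hy)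
    rw [h2, h2, hZcard, ← h1] at h3
    exact h3
  have hdc := Finset.sum_card_bipartiteAbove_eq_sum_card_bipartiteBelow (s := V') (t := D)
    (fun v y => ρ y v = v)
  have hlow : V'.card * (p - 1) ≤ ∑ v ∈ V', (Finset.bipartiteAbove (fun v y => ρ y v = v) D v).card := by
    refine Finset.card_nsmul_le_sum _ _ _ fun v hv => ?_
    obtain ⟨g, hg⟩ := hcon v
    set y := g * x * g⁻¹ with hy
    have hyE : y ∈ E := hEn.conj_mem x hxE g
    have hyZ : y ∉ Z := fun h => hxZ (by
      have := (centralOmega_normal P).conj_mem y h g⁻¹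
      simpa [hy, mul_assoc] using this)
    have hy1 : y ≠ 1 := fun h => hyZ (h ▸ one_mem Z)
    have ho : orderOf y = p := orderOf_eq_prime (hexp y hyE) hy1
    calc p - 1 = ((Finset.range (p - 1)).image (fun i => y ^ (i + 1))).card := by
          rw [Finset.card_image_of_injOn (fun i hi j hj h => ?_), Finset.card_range]
          have := pow_injOn_Iio_orderOf (x := y) (show i + 1 < orderOf y by
            rw [ho]; have := Finset.mem_range.1 hi; omega) (show j + 1 < orderOf y by
            rw [ho]; have := Finset.mem_range.1 hj; omega) h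
          omega
      _ ≤ _ := by
          refine Finset.card_le_card fun z hz => ?_
          obtain ⟨i, hi, rfl⟩ := Finset.mem_image.1 hz
          rw [Finset.mem_bipartiteAbove]
          refine ⟨?_, fixed_pow ρ hg _⟩
          simp only [D, Finset.mem_filter, Finset.mem_univ, true_and]
          refine ⟨pow_mem hyE _, fun h => hyZ ?_⟩
          have hcop' : Nat.Coprime (i + 1) (orderOf y) := by
            rw [ho]
            exact (hp.out.coprime_iff_not_dvd.2 (Nat.not_dvd_of_pos_of_lt (by omega)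
              (by have := Finset.mem_range.1 hi; omega))).symm
          obtain ⟨k, hk⟩ := exists_pow_eq_self_of_coprime hcop'
          rw [← hk]
          exact pow_mem h k
  have hhigh : ∑ y ∈ D, (Finset.bipartiteBelow (fun v y => ρ y v = v) V' y).card ≤ D.card * (c - 1) := by
    refine Finset.sum_le_card_nsmul _ _ _ fun y hy => ?_
    obtain ⟨hyE, hyZ⟩ := (Finset.mem_filter.1 hy).2
    have h1 : (Finset.univ.filter (fun v : V => ρ y v = v)).card = c := by
      rw [← hceq y hyE hyZ, Nat.card_eq_fintype_card]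
      refine (Fintype.card_of_subtype _ fun v => ?_).symm
      simp [mem_fixedOf]
    refine le_trans (Finset.card_le_card (t := (Finset.univ.filter (fun v : V => ρ y v = v)).erase 0) ?_) ?_
    · intro v hv
      rw [Finset.mem_bipartiteBelow] at hv
      simp only [V', Finset.mem_filter, Finset.mem_univ, true_and] at hv
      simp [hv.1, hv.2]
    · rw [Finset.card_erase_of_mem (by simp), h1]
  have hmain : (Nat.card V - 1) * (p - 1) ≤ D.card * (c - 1) := hV' ▸ hlow.trans (hdc ▸ hhigh)
  have hpn : (p + 1) ^ n ≤ c := hAW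
  have hpge : 3 ≤ p := lt_of_le_of_ne hp.out.two_le (Ne.symm hp2)
  have hc1 : (p + 1) * n ≤ c := le_trans (succ_mul_le_pow (p + 1) (by omega) n hn) hpn
  have hc2 : 2 ≤ c := le_trans (Nat.mul_le_mul (by omega : 2 ≤ p + 1) hn) hc1
  obtain ⟨p', rfl⟩ : ∃ p', p = p' + 1 := ⟨p - 1, by omega⟩
  have hpow' : c ^ p' * (c - 1) ≤ Nat.card V - 1 := by
    rw [hVc, pow_succ, Nat.mul_sub, mul_one]
    have : 1 ≤ c ^ p' := Nat.one_le_pow _ _ (by omega)
    omega
  have h6 : c ^ p' * p' ≤ D.card := by
    refine Nat.le_of_mul_le_mul_right (?_ : c ^ p' * p' * (c - 1) ≤ D.card * (c - 1)) (by omega)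
    calc c ^ p' * p' * (c - 1) = c ^ p' * (c - 1) * p' := by ring
      _ ≤ (Nat.card V - 1) * (p' + 1 - 1) := Nat.mul_le_mul hpow' le_rfl
      _ ≤ _ := hmain
  have h7 : ((p' + 1 + 1) * n) ^ 2 * p' ≤ c ^ p' * p' := by
    refine Nat.mul_le_mul_right _ ?_
    calc ((p' + 1 + 1) * n) ^ 2 ≤ c ^ 2 := Nat.pow_le_pow_left hc1 2
      _ ≤ c ^ p' := Nat.pow_le_pow_right (by omega) (by omega)
  nlinarith [Nat.mul_pos hn hn, mul_pos (Nat.mul_pos hn hn) (by omega : 0 < p')]

/-- The avoidance theorem. -/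
theorem avoid_aux (hp2 : p ≠ 2) : ∀ n : ℕ, AvoidBelow.{u, v} p n := by
  intro n
  induction n with
  | zero => intro G _ _ V _ _ ρ P _ _ _ h; omega
  | succ n ih =>
    intro G _ _ V _ _ ρ P hPn hP hcop hlt x hxP hxV
    haveI := hPn
    classical
    have IH : AvoidBelow.{u, v} p (Nat.card V) := fun G' _ _ V' _ _ ρ' P' a b c' d =>
      ih G' V' ρ' P' a b c' (by omega)
    by_cases hred : ∃ W : AddSubgroup V, (∀ g, ∀ v ∈ W, ρ g v ∈ W) ∧ W ≠ ⊥ ∧ W ≠ ⊤
    · obtain ⟨W, hW, hW0, hW1⟩ := hred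
      by_cases hxW : ∃ w ∈ W, ρ x w ≠ w
      · obtain ⟨w, hw, hxw⟩ := hxW
        let ρ' : G →* AddMonoid.End W :=
          { toFun := fun g =>
              { toFun := fun v => ⟨ρ g (v : V), hW g v v.2⟩
                map_zero' := Subtype.ext (map_zero _)
                map_add' := fun a b => Subtype.ext (map_add (ρ g) (a : V) (b : V)) }
            map_one' := AddMonoidHom.ext fun v => Subtype.ext (rho_one ρ (v : V))
            map_mul' := fun g h => AddMonoidHom.ext fun v => Subtype.ext (rho_mul ρ g h (v : V)) }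
        have hlt' : Nat.card W < Nat.card V := by
          obtain ⟨v, hv⟩ : ∃ v, v ∉ W := by
            by_contra h; push_neg at h; exact hW1 (eq_top_iff.2 fun v _ => h v)
          exact Finite.card_subtype_lt (p := fun v : V => v ∈ W) hv
        obtain ⟨v, hv⟩ := IH G W ρ' P hPn hP (hcop.of_dvd_right W.card_addSubgroup_dvd_card)
          hlt' x hxP ⟨⟨w, hw⟩, fun h => hxw (congrArg Subtype.val h)⟩
        exact ⟨(v : V), fun g hg => hv g (Subtype.ext hg)⟩
      · push_neg at hxW
        let ρ' : G →* AddMonoid.End (V ⧸ W) :=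
          { toFun := fun g => QuotientAddGroup.map W W (ρ g) (fun v hv => hW g v hv)
            map_one' := AddMonoidHom.ext fun v => by
              induction v using QuotientAddGroup.induction_on with
              | H v => exact congrArg (QuotientAddGroup.mk (s := W)) (rho_one ρ v)
            map_mul' := fun g h => AddMonoidHom.ext fun v => by
              induction v using QuotientAddGroup.induction_on with
              | H v => exact congrArg (QuotientAddGroup.mk (s := W)) (rho_mul ρ g h v) }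
        have hlt' : Nat.card (V ⧸ W) < Nat.card V := by
          have h := W.card_mul_index
          have : 1 < Nat.card W := by
            haveI : Nontrivial W := (AddSubgroup.nontrivial_iff_ne_bot W).2 hW0
            exact Finite.one_lt_card
          rw [← h]
          exact lt_mul_of_one_lt_left Nat.card_pos this
        have hdvd : Nat.card (V ⧸ W) ∣ Nat.card V := W.index_dvd_card
        have hxV' : ∃ v, ρ' x v ≠ v := by
          by_contra hcon
          push_neg at hcon
          obtain ⟨v, hv⟩ := hxV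
          apply hv
          have hd : ρ x v - v ∈ W :=
            (QuotientAddGroup.eq_iff_sub_mem (N := W)).1 (hcon (v : V ⧸ W))
          obtain ⟨k, hk⟩ := hP ⟨x, hxP⟩
          have hk' : x ^ p ^ k = 1 := congrArg Subtype.val hk
          have hit : ∀ m : ℕ, ρ (x ^ m) v = v + m • (ρ x v - v) := by
            intro m
            induction m with
            | zero => simp [rho_one]
            | succ m ihm => rw [pow_succ', rho_mul, ihm, map_add, map_nsmul, hxW _ hd, succ_nsmul]; abel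
          have h2 := hit (p ^ k)
          rw [hk', rho_one] at h2
          exact sub_eq_zero.1 (nsmul_cancel_of_coprime (hcop.pow_left k) (left_eq_add.1 h2))
        obtain ⟨v, hv⟩ := IH G (V ⧸ W) ρ' P hPn hP (hcop.of_dvd_right hdvd) hlt' x hxP hxV'
        induction v using QuotientAddGroup.induction_on with
        | H v => exact ⟨v, fun g hg => hv g (congrArg (QuotientAddGroup.mk (s := W)) hg)⟩
    · push_neg at hred
      have hirr : ∀ W : AddSubgroup V, (∀ g, ∀ v ∈ W, ρ g v ∈ W) → W = ⊥ ∨ W = ⊤ := fun W hW => by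
        by_cases h : W = ⊥
        · exact Or.inl h
        · exact Or.inr (hred W hW h)
      -- pass to the quotient by the kernel
      let ρb : G ⧸ ρ.ker →* AddMonoid.End V := QuotientGroup.lift ρ.ker ρ le_rfl
      have hρb : ∀ g : G, ρb (g : G ⧸ ρ.ker) = ρ g := fun g => rfl
      have hinj : ∀ q : G ⧸ ρ.ker, ρb q = 1 → q = 1 := by
        intro q
        induction q using QuotientGroup.induction_on with
        | H g => exact fun h => (QuotientGroup.eq_one_iff g).2 (MonoidHom.mem_ker.2 h)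
      have hirrb : ∀ W : AddSubgroup V, (∀ q, ∀ v ∈ W, ρb q v ∈ W) → W = ⊥ ∨ W = ⊤ :=
        fun W hW => hirr W (fun g v hv => hW (g : G ⧸ ρ.ker) v hv)
      let Pb : Subgroup (G ⧸ ρ.ker) := P.map (QuotientGroup.mk' ρ.ker)
      haveI : Pb.Normal := hPn.map _ (QuotientGroup.mk'_surjective _)
      have hPb : IsPGroup p Pb := hP.map _
      set xb : G ⧸ ρ.ker := (x : G ⧸ ρ.ker) with hxb
      have hxb1 : xb ≠ 1 := fun h => by
        obtain ⟨v, hv⟩ := hxV
        exact hv (by rw [← hρb, ← hxb, h, map_one]; rfl)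
      have hxbP : xb ∈ Pb := ⟨x, hxP, rfl⟩
      -- reduce to an element of order `p`
      obtain ⟨m, hm⟩ := (IsPGroup.iff_orderOf.1 hPb) ⟨xb, hxbP⟩
      rw [Subgroup.orderOf_mk] at hm
      obtain ⟨m', rfl⟩ : ∃ m', m = m' + 1 := Nat.exists_eq_succ_of_ne_zero (fun h => hxb1 (by
        rw [h, pow_zero, orderOf_eq_one_iff] at hm; exact hm))
      set y := xb ^ p ^ m' with hy
      have hyp : y ^ p = 1 := by rw [hy, ← pow_mul, ← pow_succ, ← hm, pow_orderOf_eq_one]
      have hy1 : y ≠ 1 := fun h => by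
        have := orderOf_dvd_of_pow_eq_one h
        rw [hm] at this
        have := (Nat.pow_dvd_pow_iff_le_right hp.out.one_lt).1 this
        omega
      have hyP : y ∈ Pb := pow_mem hxbP _
      obtain ⟨v, hv⟩ : ∃ v : V, ∀ q : G ⧸ ρ.ker, ρb (q * y * q⁻¹) v ≠ v := by
        by_cases hB : ∃ B : Subgroup (G ⧸ ρ.ker), B.Normal ∧ B ≤ Pb ∧ (∀ a ∈ B, ∀ b ∈ B, a * b = b * a) ∧
            (∀ a ∈ B, a ^ p = 1) ∧ p < Nat.card B
        · obtain ⟨B, hBn, hBP, hBc, hBe, hBcard⟩ := hB
          haveI := hBn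
          exact avoid_of_noncyclic_normal ρb hp2 IH hinj hirrb hcop Pb hPb B hBP hBc hBe hBcard y hyP hy1
        · push_neg at hB
          exact avoid_of_cyclic_normal ρb hp2 hinj hirrb hcop Pb hPb
            (fun B h1 h2 h3 h4 => hB B h1 h2 h3 h4) y hyP hy1 hyp
      refine ⟨v, fun g hg => hv (g : G ⧸ ρ.ker) ?_⟩
      rw [hy, ← conj_pow]
      exact fixed_pow ρb (g := (g : G ⧸ ρ.ker) * xb * (g : G ⧸ ρ.ker)⁻¹) hg _

/-- If `x` lies in a normal `p`-subgroup (`p` odd), `p` is prime to `|V|` and `x` moves some vector, then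
some vector is moved by all conjugates of `x`. -/
theorem exists_moved_by_all_conj (hp2 : p ≠ 2) (P : Subgroup G) (hPn : P.Normal) (hP : IsPGroup p P)
    (hcop : p.Coprime (Nat.card V)) (x : G) (hxP : x ∈ P) (hxV : ∃ v, ρ x v ≠ v) :
    ∃ v : V, ∀ g : G, ρ (g * x * g⁻¹) v ≠ v :=
  avoid_aux hp2 (Nat.card V + 1) G V ρ P hPn hP hcop (Nat.lt_succ_self _) x hxP hxV

end Cfsg.Agent.Lib.AvoidConj
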