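import Cfsg.Agent.Lib.AvoidConj.Tools
import Cfsg.Agent.Lib.UniqueInvolution

/-!
Elements of order `p` in a `p`-group (odd `p`) all of whose abelian normal subgroups in question are cyclic.
-/

set_option autoImplicit false

namespace Cfsg.Agent.Lib.AvoidConj

open Subgroup
open scoped commutatorElement

universe u

variable {p : ℕ} [hp : Fact p.Prime]

/-- In a normal subgroup `R` of a `p`-group in which the elements of order `p` that are central modulo `Z`
lie in `Z`, all elements of order `p` lie in `Z`. -/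
theorem order_p_mem_of_second_center {P : Type u} [Group P] [Finite P] (hP : IsPGroup p P) (hp2 : p ≠ 2)
    (R : Subgroup P) [hR : R.Normal] (Z : Subgroup P) (hZ : Z ≤ Subgroup.center P) (hZcard : Nat.card Z = p)
    (h : ∀ y ∈ R, y ^ p = 1 → (∀ u : P, u * y * u⁻¹ * y⁻¹ ∈ Z) → y ∈ Z) :
    ∀ y ∈ R, y ^ p = 1 → y ∈ Z := by
  classical
  by_contra hcon
  push_neg at hcon
  let S : Set (Subgroup P) := {Y | Y.Normal ∧ Y ≤ R ∧ ∃ y ∈ Y, y ^ p = 1 ∧ y ∉ Z}
  obtain ⟨Y, hY⟩ := (Set.toFinite S).exists_minimal ⟨R, hR, le_rfl, hcon⟩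
  obtain ⟨hYn, hYR, y, hyY, hyp, hyZ⟩ := hY.1
  haveI := hYn
  haveI : Group.IsNilpotent P := hP.isNilpotent
  obtain ⟨n, hn⟩ : ∃ n, (⊤ : Subgroup P).lowerCentralSeries n = ⊥ :=
    (Subgroup.isNilpotent_iff_lowerCentralSeries _).1 (hP.to_subgroup ⊤).isNilpotent
  set C : Subgroup P := ⁅Y, (⊤ : Subgroup P)⁆ with hC
  haveI hCn : C.Normal := Subgroup.commutator_normal _ _
  have hCY : C ≤ Y := Subgroup.commutator_le_left _ _
  have hCne : C ≠ Y := by
    intro hEq
    have hall : ∀ m, Y ≤ (⊤ : Subgroup P).lowerCentralSeries m := fun m => by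
      induction m with
      | zero => exact le_top
      | succ m ih =>
        rw [Subgroup.lowerCentralSeries_succ]
        calc Y = ⁅Y, (⊤ : Subgroup P)⁆ := hEq.symm
          _ ≤ _ := Subgroup.commutator_mono ih le_rfl
    have := hall n hyY
    rw [hn, Subgroup.mem_bot] at this
    exact hyZ (this ▸ one_mem Z)
  have hCZ : ∀ c ∈ C, c ^ p = 1 → c ∈ Z := by
    intro c hc hcp
    by_contra hcZ
    exact hCne (le_antisymm hCY (hY.2 ⟨hCn, hCY.trans hYR, c, hc, hcp, hcZ⟩ hCY))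
  -- `C` is cyclic, hence commutative
  haveI hCcyc : IsCyclic C := by
    refine ((Cfsg.Agent.Lib.UniqueInvolution.isCyclic_or_quaternion (p := p) (hP.to_subgroup C) ?_).resolve_right
      (fun h => hp2 h.1))
    intro H K hH hK
    have key : ∀ H : Subgroup C, Nat.card H = p → H.map C.subtype = Z := by
      intro H hH
      refine Subgroup.eq_of_le_of_card_ge ?_ ?_
      · rintro _ ⟨k, hk, rfl⟩
        refine hCZ _ k.2 ?_
        have := pow_card_eq_one' (G := H) (x := ⟨k, hk⟩)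
        rw [hH] at this
        simpa using congrArg (fun z : H => ((z : C) : P)) this
      · rw [hZcard, Subgroup.card_map_of_injective C.subtype_injective, hH]
    exact Subgroup.map_injective C.subtype_injective ((key H hH).trans (key K hK).symm)
  have hCcomm : ∀ a ∈ C, ∀ b ∈ C, a * b = b * a := fun a ha b hb =>
    congrArg Subtype.val (IsCyclic.commGroup.mul_comm (⟨a, ha⟩ : C) ⟨b, hb⟩)
  have hcentral : ∀ z ∈ Z, ∀ u : P, u * z = z * u := fun z hz u =>
    (Subgroup.mem_center_iff.1 (hZ hz) u)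
  have hZexp : ∀ z ∈ Z, z ^ p = 1 := fun z hz => by
    have := pow_card_eq_one' (G := Z) (x := ⟨z, hz⟩)
    rw [hZcard] at this
    simpa using congrArg Subtype.val this
  -- commutators of `y` with `C` lie in `Z`
  have hyC : ∀ (k : ℕ), ∀ c ∈ C, c ∈ (⊤ : Subgroup P).lowerCentralSeries (n - k) →
      y * c * y⁻¹ * c⁻¹ ∈ Z := by
    intro k
    induction k with
    | zero =>
      intro c _ hc
      rw [Nat.sub_zero, hn, Subgroup.mem_bot] at hc
      simp [hc]
    | succ k ih =>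
      intro c hcC hc
      set d := y * c * y⁻¹ * c⁻¹ with hd
      have hdC : d ∈ C := mul_mem (hCn.conj_mem c hcC y) (inv_mem hcC)
      have hdl : d ∈ (⊤ : Subgroup P).lowerCentralSeries (n - k) := by
        have h1 : ⁅c, y⁆ ∈ (⊤ : Subgroup P).lowerCentralSeries (n - (k + 1) + 1) := by
          rw [Subgroup.lowerCentralSeries_succ]
          exact Subgroup.commutator_mem_commutator hc (Subgroup.mem_top y)
        have h2 : d = ⁅c, y⁆⁻¹ := by rw [commutatorElement_inv, commutatorElement_def, hd]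
        rw [h2]
        exact inv_mem (Subgroup.lowerCentralSeries_antitone _ (by omega) h1)
      have he := ih d hdC hdl
      set e := y * d * y⁻¹ * d⁻¹ with he'
      have hc' : y * c * y⁻¹ = d * c := by rw [hd]; group
      have hd' : y * d * y⁻¹ = e * d := by rw [he']; group
      have hye : y * e * y⁻¹ = e := by rw [hcentral e he y]; group
      have hde : Commute d e := hcentral e he d
      have hk := pow_conj_eq hc' hd' hye hde p
      obtain ⟨m, hm⟩ := dvd_choose_two hp.out hp2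
      rw [hyp, hm, pow_mul, hZexp e he, one_pow, one_mul, one_mul, inv_one, mul_one] at hk
      have hdp : d ^ p = 1 := (mul_eq_right.1 hk.symm)
      exact hCZ d hdC hdp
  apply hyZ
  refine h y (hYR hyY) hyp (fun u => ?_)
  set c := u * y * u⁻¹ * y⁻¹ with hc
  have hcC : c ∈ C := by
    have h2 : c = ⁅y, u⁆⁻¹ := by rw [commutatorElement_inv, commutatorElement_def, hc]
    rw [h2]
    exact inv_mem (Subgroup.commutator_mem_commutator hyY (Subgroup.mem_top u))
  have he : y * c * y⁻¹ * c⁻¹ ∈ Z :=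
    hyC n c hcC (by rw [Nat.sub_self, Subgroup.lowerCentralSeries_zero]; exact Subgroup.mem_top c)
  set e := y * c * y⁻¹ * c⁻¹ with he'
  have hd' : y * c * y⁻¹ = e * c := by rw [he']; group
  have hk := mul_pow_eq hd' (hcentral e he y) (hcentral e he c) p
  have hcy : (c * y) ^ p = 1 := by
    have h1 : c * y = MulAut.conj u y := by rw [MulAut.conj_apply, hc]; group
    rw [h1, ← map_pow, hyp, map_one]
  obtain ⟨m, hm⟩ := dvd_choose_two hp.out hp2
  rw [hcy, hyp, hm, pow_mul, hZexp e he, one_pow, one_mul, mul_one] at hk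
  exact hCZ c hcC hk.symm

variable {G : Type u} [Group G] [Finite G]

/-- The elements of `P` of order dividing `p` that are central in `P`. -/
def centralOmega (p : ℕ) (P : Subgroup G) : Subgroup G where
  carrier := {z | z ∈ P ∧ z ^ p = 1 ∧ ∀ u ∈ P, u * z = z * u}
  one_mem' := ⟨one_mem _, one_pow _, fun u _ => by rw [mul_one, one_mul]⟩
  mul_mem' := fun {a b} ha hb => by
    refine ⟨mul_mem ha.1 hb.1, ?_, fun u hu => ?_⟩
    · rw [Commute.mul_pow (hb.2.2 a ha.1), ha.2.1, hb.2.1, one_mul]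
    · rw [← mul_assoc, ha.2.2 u hu, mul_assoc, hb.2.2 u hu, mul_assoc]
  inv_mem' := fun {a} ha => ⟨inv_mem ha.1, by rw [inv_pow, ha.2.1, inv_one],
    fun u hu => (Commute.inv_right (ha.2.2 u hu)).eq⟩

theorem mem_centralOmega {P : Subgroup G} {z : G} :
    z ∈ centralOmega p P ↔ z ∈ P ∧ z ^ p = 1 ∧ ∀ u ∈ P, u * z = z * u := Iff.rfl

/-- The elements of order dividing `p` that are central in `P` modulo `centralOmega p P`. -/
def secondOmega (p : ℕ) [hp : Fact p.Prime] (hp2 : p ≠ 2) (P : Subgroup G) : Subgroup G where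
  carrier := {y | y ∈ P ∧ y ^ p = 1 ∧ ∀ u ∈ P, u * y * u⁻¹ * y⁻¹ ∈ centralOmega p P}
  one_mem' := ⟨one_mem _, one_pow _, fun u _ => by simp⟩
  mul_mem' := fun {a b} ha hb => by
    have he := hb.2.2 b hb.1
    refine ⟨mul_mem ha.1 hb.1, ?_, fun u hu => ?_⟩
    · have h := ha.2.2 b hb.1
      set e := b * a * b⁻¹ * a⁻¹ with hee
      have hd : b * a * b⁻¹ = e * a := by rw [hee]; group
      have hk := mul_pow_eq hd (h.2.2 b hb.1) (h.2.2 a ha.1) p
      obtain ⟨m, hm⟩ := dvd_choose_two hp.out hp2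
      rw [hk, hm, pow_mul, h.2.1, one_pow, ha.2.1, hb.2.1, one_mul, one_mul]
    · have h1 := ha.2.2 u hu
      have h2 := hb.2.2 u hu
      have h3 : u * (a * b) * u⁻¹ * (a * b)⁻¹ =
          (u * a * u⁻¹ * a⁻¹) * (a * (u * b * u⁻¹ * b⁻¹) * a⁻¹) := by group
      rw [h3, h2.2.2 a ha.1]
      simpa [mul_assoc] using mul_mem h1 h2
  inv_mem' := fun {a} ha => by
    refine ⟨inv_mem ha.1, by rw [inv_pow, ha.2.1, inv_one], fun u hu => ?_⟩
    have h := ha.2.2 u hu
    have h' := inv_mem h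
    have : u * a⁻¹ * u⁻¹ * a⁻¹⁻¹ = a⁻¹ * (u * a * u⁻¹ * a⁻¹)⁻¹ * a := by group
    rw [this, h'.2.2 _ (inv_mem ha.1)]
    simpa [mul_assoc] using h'

theorem mem_secondOmega {hp2 : p ≠ 2} {P : Subgroup G} {y : G} :
    y ∈ secondOmega p hp2 P ↔ y ∈ P ∧ y ^ p = 1 ∧ ∀ u ∈ P, u * y * u⁻¹ * y⁻¹ ∈ centralOmega p P :=
  Iff.rfl

theorem centralOmega_le_secondOmega (hp2 : p ≠ 2) (P : Subgroup G) :
    centralOmega p P ≤ secondOmega p hp2 P := fun z hz => by
  refine mem_secondOmega.2 ⟨hz.1, hz.2.1, fun u hu => ?_⟩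
  rw [show u * z * u⁻¹ * z⁻¹ = 1 by rw [hz.2.2 u hu]; group]
  exact one_mem _

instance centralOmega_normal (P : Subgroup G) [hPn : P.Normal] : (centralOmega p P).Normal :=
  ⟨fun z hz g => by
    refine mem_centralOmega.2 ⟨hPn.conj_mem z hz.1 g, ?_, fun u hu => ?_⟩
    · rw [← MulAut.conj_apply, ← map_pow, hz.2.1, map_one]
    · have h := congrArg (MulAut.conj g) (hz.2.2 (g⁻¹ * u * g) (by simpa using hPn.conj_mem u hu g⁻¹))
      simpa [MulAut.conj_apply, mul_assoc] using h⟩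

theorem secondOmega_normal (hp2 : p ≠ 2) (P : Subgroup G) [hPn : P.Normal] :
    (secondOmega p hp2 P).Normal :=
  ⟨fun y hy g => by
    refine mem_secondOmega.2 ⟨hPn.conj_mem y hy.1 g, ?_, fun u hu => ?_⟩
    · rw [← MulAut.conj_apply, ← map_pow, hy.2.1, map_one]
    · have h := (centralOmega_normal P).conj_mem _
        (hy.2.2 (g⁻¹ * u * g) (by simpa using hPn.conj_mem u hu g⁻¹)) g
      simpa [mul_assoc] using h⟩

/-- The structure of the elements of order `p` when every normal elementary abelian subgroup inside `P`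
has order at most `p`. -/
theorem order_p_structure (hp2 : p ≠ 2) (P : Subgroup G) [hPn : P.Normal] (hP : IsPGroup p P) (hP1 : P ≠ ⊥)
    (hcyc : ∀ B : Subgroup G, B.Normal → B ≤ P → (∀ a ∈ B, ∀ b ∈ B, a * b = b * a) →
      (∀ a ∈ B, a ^ p = 1) → Nat.card B ≤ p) :
    Nat.card (centralOmega p P) = p ∧
    (∀ y ∈ secondOmega p hp2 P, (∀ e ∈ secondOmega p hp2 P, y * e = e * y) → y ∈ centralOmega p P) ∧
    ∀ x ∈ P, x ^ p = 1 → x ∈ secondOmega p hp2 P := by
  classical
  set Z := centralOmega p P with hZdef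
  set E := secondOmega p hp2 P with hEdef
  have hZcomm : ∀ a ∈ Z, ∀ b ∈ Z, a * b = b * a := fun a ha b hb => hb.2.2 a ha.1
  have hZcard : Nat.card Z = p := by
    refine le_antisymm (hcyc Z inferInstance (fun z hz => hz.1) hZcomm (fun z hz => hz.2.1)) ?_
    haveI : Nontrivial P := (Subgroup.nontrivial_iff_ne_bot P).2 hP1
    haveI := hP.center_nontrivial
    obtain ⟨k, hk⟩ := IsPGroup.iff_card.1 (hP.to_subgroup (Subgroup.center P))
    have hdvd : p ∣ Nat.card (Subgroup.center P) := by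
      rw [hk]
      refine dvd_pow_self p ?_
      rintro rfl
      have := Finite.one_lt_card (α := Subgroup.center P)
      simp [hk] at this
    obtain ⟨z, hz⟩ := exists_prime_orderOf_dvd_card' p hdvd
    have hzp : ((z : P) : G) ^ p = 1 := by
      have := pow_orderOf_eq_one z
      rw [hz] at this
      simpa using congrArg (fun t : Subgroup.center P => ((t : P) : G)) this
    have hzZ : ((z : P) : G) ∈ Z := mem_centralOmega.2 ⟨(z : P).2, hzp, fun u hu =>
      congrArg Subtype.val (Subgroup.mem_center_iff.1 z.2 ⟨u, hu⟩)⟩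
    have ho : orderOf ((z : P) : G) = p := by
      rw [Subgroup.orderOf_coe, Subgroup.orderOf_coe, hz]
    exact Nat.le_of_dvd Nat.card_pos (ho ▸ Subgroup.orderOf_dvd_natCard Z hzZ)
  haveI hEn : E.Normal := secondOmega_normal hp2 P
  have hZE : Z ≤ E := centralOmega_le_secondOmega hp2 P
  have hcent : ∀ y ∈ E, (∀ e ∈ E, y * e = e * y) → y ∈ Z := by
    intro y hy hc
    let CE : Subgroup G := E ⊓ Subgroup.centralizer (E : Set G)
    have hle : Z ≤ CE := fun z hz => ⟨hZE hz, Subgroup.mem_centralizer_iff.2 fun e he => hz.2.2 e he.1⟩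
    have hcard : Nat.card CE ≤ p := hcyc CE inferInstance (fun a ha => ha.1.1)
      (fun a ha b hb => (Subgroup.mem_centralizer_iff.1 hb.2 a ha.1)) (fun a ha => ha.1.2.1)
    have heq : Z = CE := Subgroup.eq_of_le_of_card_ge hle (by omega)
    rw [heq]
    exact ⟨hy, Subgroup.mem_centralizer_iff.2 fun e he => (hc e he).symm⟩
  refine ⟨hZcard, hcent, ?_⟩
  -- the centraliser of `E` in `P`
  let R : Subgroup G := P ⊓ Subgroup.centralizer (E : Set G)
  haveI hRn : R.Normal := inferInstanceAs (P ⊓ Subgroup.centralizer (E : Set G)).Normal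
  have hR : ∀ y ∈ R, y ^ p = 1 → y ∈ Z := by
    intro y hy hyp
    have key := order_p_mem_of_second_center hP hp2 (R.subgroupOf P) (Z.subgroupOf P)
      (fun z hz => Subgroup.mem_center_iff.2 fun u => Subtype.ext ((hz : (z : G) ∈ Z).2.2 u u.2))
      (by rw [Nat.card_congr (Subgroup.subgroupOfEquivOfLe (fun z hz => hz.1 : Z ≤ P)).toEquiv, hZcard])
      (fun w hw hwp hwc => by
        have hwE : (w : G) ∈ E := mem_secondOmega.2 ⟨w.2, by simpa using congrArg Subtype.val hwp,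
          fun u hu => hwc ⟨u, hu⟩⟩
        exact hcent _ hwE fun e he => (Subgroup.mem_centralizer_iff.1 (hw : (w : G) ∈ R).2 e he).symm)
    exact key ⟨y, hy.1⟩ hy (Subtype.ext hyp)
  intro x hxP hxp
  -- commutation maps from `E` into `Z`
  have hmem : ∀ u ∈ P, ∀ e ∈ E, u * e * u⁻¹ * e⁻¹ ∈ Z := fun u hu e he => he.2.2 u hu
  let f : P → (E →* Z) := fun u =>
    { toFun := fun e => ⟨(u : G) * e * (u : G)⁻¹ * (e : G)⁻¹, hmem u u.2 e e.2⟩
      map_one' := Subtype.ext (by simp)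
      map_mul' := fun e e' => by
        apply Subtype.ext
        show (u : G) * ((e : G) * e') * (u : G)⁻¹ * ((e : G) * e')⁻¹ =
          ((u : G) * e * (u : G)⁻¹ * (e : G)⁻¹) * ((u : G) * e' * (u : G)⁻¹ * (e' : G)⁻¹)
        set c := (u : G) * e' * (u : G)⁻¹ * (e' : G)⁻¹ with hc
        have h1 : (u : G) * ((e : G) * e') * (u : G)⁻¹ * ((e : G) * e')⁻¹ =
          ((u : G) * e * (u : G)⁻¹ * (e : G)⁻¹) * ((e : G) * c * (e : G)⁻¹) := by rw [hc]; group
        rw [h1, (hmem u u.2 e' e'.2).2.2 (e : G) e.2.1, hc]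
        group }
  let Z' : Subgroup E := Z.subgroupOf E
  haveI : Z'.Normal := inferInstanceAs (Z.subgroupOf E).Normal
  have hker : ∀ u : P, Z' ≤ (f u).ker := fun u z hz => by
    rw [MonoidHom.mem_ker]
    apply Subtype.ext
    show (u : G) * (z : G) * (u : G)⁻¹ * (z : G)⁻¹ = 1
    have hz' : (z : G) ∈ Z := hz
    have hz'' : (u : G) * (z : G) = (z : G) * u := hz'.2.2 (u : G) u.2
    rw [hz'']; group
  let Φ : E ⧸ Z' → (E ⧸ Z' →* Z) := fun q =>
    QuotientGroup.lift Z' (f ⟨(q.out : E), q.out.2.1⟩) (hker _)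
  have hsame : ∀ u w : P, (∀ e : E, f u e = f w e) →
      ∀ e ∈ E, ((u : G)⁻¹ * w) * e = e * ((u : G)⁻¹ * w) := by
    intro u w h e he
    have h1 : (u : G) * e * (u : G)⁻¹ * e⁻¹ = (w : G) * e * (w : G)⁻¹ * e⁻¹ :=
      congrArg Subtype.val (h ⟨e, he⟩)
    have h2 := mul_right_cancel h1
    calc ((u : G)⁻¹ * w) * e = (u : G)⁻¹ * ((w : G) * e * (w : G)⁻¹) * w := by group
      _ = _ := by rw [← h2]; group
  have hΦinj : Function.Injective Φ := by
    intro q q' h
    rw [← QuotientGroup.out_eq' q, ← QuotientGroup.out_eq' q', QuotientGroup.eq]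
    apply hcent _ (mul_mem (inv_mem q.out.2) q'.out.2)
    exact hsame ⟨(q.out : G), q.out.2.1⟩ ⟨(q'.out : G), q'.out.2.1⟩ (fun e => DFunLike.congr_fun h (e : E ⧸ Z'))
  haveI : Finite (E ⧸ Z' →* Z) := Finite.of_injective (fun φ => (φ : E ⧸ Z' → Z)) DFunLike.coe_injective
  have hbij : Function.Bijective Φ :=
    hΦinj.bijective_of_nat_card_le
      (card_hom_le_card hZcard _ _ (((hP.to_le (fun e he => he.1 : E ≤ P))).to_quotient Z') rfl)
  obtain ⟨q, hq⟩ := hbij.2 (QuotientGroup.lift Z' (f ⟨x, hxP⟩) (hker _))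
  set e₀ : G := ((q.out : E) : G) with he₀
  have he₀E : e₀ ∈ E := q.out.2
  have hr : e₀⁻¹ * x ∈ R := Subgroup.mem_inf.2 ⟨mul_mem (inv_mem (he₀E.1 : e₀ ∈ P)) hxP, Subgroup.mem_centralizer_iff.2 fun e he =>
    (hsame ⟨e₀, he₀E.1⟩ ⟨x, hxP⟩ (fun e' => DFunLike.congr_fun hq (e' : E ⧸ Z')) e he).symm⟩
  have hrp : (e₀⁻¹ * x) ^ p = 1 := by
    have hc : Commute e₀ (e₀⁻¹ * x) := (Subgroup.mem_centralizer_iff.1 hr.2 e₀ he₀E)
    have h1 := hc.mul_pow p
    rw [mul_inv_cancel_left, hxp, he₀E.2.1, one_mul] at h1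
    exact h1.symm
  have := mul_mem he₀E (hZE (hR _ hr hrp))
  rwa [mul_inv_cancel_left] at this

end Cfsg.Agent.Lib.AvoidConj
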