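import Cfsg.Agent.Lib.AvoidConj.Blocks
import Cfsg.Agent.Lib.AvoidConj.Structure

/-!
Modules of groups of exponent `p` with commutators in a subgroup of order `p` without fixed points.
-/

set_option autoImplicit false

namespace Cfsg.Agent.Lib.AvoidConj

universe u v

variable {G : Type u} [Group G] [Finite G] {V : Type v} [AddCommGroup V] [Finite V]
  (ρ : G →* AddMonoid.End V) {p : ℕ} [hp : Fact p.Prime]

/-- If `u` moves `y` by `e`, and `e` has no fixed points, then `|W| = |C_W(y)| ^ p`. -/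
theorem card_eq_fixed_pow (hcop : p.Coprime (Nat.card V)) (W : AddSubgroup V) {u y e : G}
    (hu : ∀ w ∈ W, ρ u w ∈ W) (hy : ∀ w ∈ W, ρ y w ∈ W) (he : ∀ w ∈ W, ρ e w ∈ W)
    (hye : Commute y e) (hue : Commute u e) (huy : u * y * u⁻¹ = y * e)
    (hyp : y ^ p = 1) (hep : e ^ p = 1) (hfree : ∀ w : V, ρ e w = w → w = 0) :
    Nat.card W = Nat.card (W ⊓ fixedOf ρ ({y} : Set G) : AddSubgroup V) ^ p := by
  classical
  have hpowmem : ∀ {g : G}, (∀ w ∈ W, ρ g w ∈ W) → ∀ (n : ℕ), ∀ w ∈ W, ρ (g ^ n) w ∈ W := by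
    intro g hg n
    induction n with
    | zero => intro w hw; rwa [pow_zero, rho_one]
    | succ n ih => intro w hw; rw [pow_succ, rho_mul]; exact ih _ (hg w hw)
  have hconj : ∀ i : ℕ, u ^ i * y * (u ^ i)⁻¹ = y * e ^ i := by
    intro i
    induction i with
    | zero => simp
    | succ i ih =>
      have h1 : u ^ (i + 1) * y * (u ^ (i + 1))⁻¹ = u * (u ^ i * y * (u ^ i)⁻¹) * u⁻¹ := by
        rw [pow_succ']; group
      rw [h1, ih, pow_succ']
      have h2 : u * (y * e ^ i) * u⁻¹ = (u * y * u⁻¹) * (u * e ^ i * u⁻¹) := by group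
      rw [h2, huy, (hue.pow_right i).eq, mul_inv_cancel_right, mul_assoc]
  let Wi : ℕ → AddSubgroup V := fun i => W ⊓ fixedOf ρ ({y * e ^ i} : Set G)
  have hmem : ∀ i w, w ∈ Wi i ↔ w ∈ W ∧ ρ (y * e ^ i) w = w := fun i w => by
    simp only [Wi, AddSubgroup.mem_inf, mem_fixedOf, Set.mem_singleton_iff, forall_eq]
  have hci : ∀ i, (y * e ^ i) ^ p = 1 := fun i => by
    rw [(hye.pow_right i).mul_pow, hyp, ← pow_mul, mul_comm i p, pow_mul, hep, one_pow, one_mul]
  -- all pieces have the same order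
  have hcard : ∀ i, Nat.card (Wi i) = Nat.card (Wi 0) := by
    intro i
    refine (Nat.card_congr ?_).symm
    refine Equiv.ofBijective (fun w => (⟨ρ (u ^ i) (w : V), ?_⟩ : Wi i)) ⟨?_, ?_⟩
    · obtain ⟨h1, h2⟩ := (hmem 0 (w : V)).1 w.2
      refine (hmem i _).2 ⟨hpowmem hu i _ h1, ?_⟩
      rw [pow_zero, mul_one] at h2
      rw [← rho_mul, ← hconj i, show u ^ i * y * (u ^ i)⁻¹ * u ^ i = u ^ i * y by group, rho_mul, h2]
    · intro a b h
      have := congrArg (fun t : Wi i => ρ (u ^ i)⁻¹ (t : V)) h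
      simp only [rho_inv_cancel] at this
      exact Subtype.ext this
    · intro b
      obtain ⟨h1, h2⟩ := (hmem i (b : V)).1 b.2
      have hinvmem : ρ (u ^ i)⁻¹ (b : V) ∈ W := by
        obtain ⟨n, hn⟩ : (u ^ i)⁻¹ ∈ Submonoid.powers u := by
          rw [mem_powers_iff_mem_zpowers]; exact inv_mem (pow_mem (Subgroup.mem_zpowers u) i)
        rw [← hn]; exact hpowmem hu n _ h1
      refine ⟨⟨ρ (u ^ i)⁻¹ (b : V), (hmem 0 _).2 ⟨hinvmem, ?_⟩⟩, Subtype.ext (rho_cancel_inv ρ _ _)⟩
      rw [pow_zero, mul_one, ← rho_mul,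
        show y * (u ^ i)⁻¹ = (u ^ i)⁻¹ * (u ^ i * y * (u ^ i)⁻¹) by group, hconj, rho_mul, h2]
  -- the sum map
  let Φ : (∀ i : Fin p, Wi i) → W := fun f => ⟨∑ i, (f i : V), sum_mem fun i _ => ((hmem _ _).1 (f i).2).1⟩
  let S : ℕ → V → V := fun i v => ∑ k ∈ Finset.range p, ρ ((y * e ^ i) ^ k) v
  have hSfix : ∀ i v, ρ (y * e ^ i) (S i v) = S i v := fun i v => sum_range_pow_fixed ρ (hci i) v
  have hSother : ∀ i j : Fin p, i ≠ j → ∀ w, ρ (y * e ^ (j : ℕ)) w = w → S i w = 0 := by
    intro i j hij w hw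
    have h1 : ρ (y * e ^ (j : ℕ)) (S i w) = S i w := by
      simp only [S, map_sum]
      refine Finset.sum_congr rfl fun k _ => ?_
      rw [← rho_mul]
      have hc : Commute (y * e ^ (j : ℕ)) (y * e ^ (i : ℕ)) :=
        ((Commute.refl y).mul_left (hye.symm.pow_left _)).mul_right
          ((hye.pow_right _).mul_left (Commute.pow_pow rfl _ _))
      rw [(hc.pow_right k).eq, rho_mul, hw]
    have h2 := hSfix i w
    set t := S i w with ht
    have h3 : ρ (e ^ (j : ℕ)) t = ρ (e ^ (i : ℕ)) t := by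
      have h4 : ρ y (ρ (e ^ (j : ℕ)) t) = ρ y (ρ (e ^ (i : ℕ)) t) := by rw [← rho_mul, ← rho_mul, h1, h2]
      have := congrArg (ρ y⁻¹) h4
      rwa [rho_inv_cancel, rho_inv_cancel] at this
    -- so a power of `e` with exponent prime to `p` fixes `t`
    have hfix : ρ (e ^ ((j : ℕ) + (p - i))) t = t := by
      rw [add_comm (j : ℕ), pow_add, rho_mul, h3, ← rho_mul, ← pow_add, Nat.sub_add_cancel i.2.le, hep, rho_one]
    have hnd : ¬ p ∣ (j : ℕ) + (p - i) := by
      intro hd
      obtain ⟨m, hm⟩ := hd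
      have hi := i.2
      have hj := j.2
      have : m = 1 := by
        rcases m with _ | _ | m
        · omega
        · rfl
        · exfalso; have h5 := Nat.mul_le_mul_left p (show 2 ≤ m + 1 + 1 by omega); omega
      subst this
      exact hij (Fin.ext (by omega))
    obtain ⟨n, hn⟩ := Nat.exists_mul_mod_eq_one_of_coprime
      ((hp.out.coprime_iff_not_dvd.2 hnd).symm) hp.out.one_lt
    apply hfree
    have := fixed_pow ρ hfix n
    rwa [← pow_mul, pow_eq_pow_mod _ hep, hn.2, pow_one] at this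
  have hinj : Function.Injective Φ := by
    intro f f' h
    funext i
    apply Subtype.ext
    have key : ∀ f : ∀ i : Fin p, Wi i, S i (∑ j, (f j : V)) = p • (f i : V) := by
      intro f
      have hadd : S i (∑ j, (f j : V)) = ∑ j, S i (f j : V) := by
        simp only [S, map_sum]; exact Finset.sum_comm
      rw [hadd, Finset.sum_eq_single i]
      · show ∑ k ∈ Finset.range p, ρ ((y * e ^ (i : ℕ)) ^ k) (f i : V) = _
        rw [Finset.sum_congr rfl (fun k _ => fixed_pow ρ ((hmem _ _).1 (f i).2).2 k), Finset.sum_const,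
          Finset.card_range]
      · intro j _ hj
        exact hSother i j (Ne.symm hj) _ ((hmem _ _).1 (f j).2).2
      · intro h; exact absurd (Finset.mem_univ i) h
    have h1 : ∑ j, (f j : V) = ∑ j, (f' j : V) := congrArg Subtype.val h
    have h2 := key f
    rw [h1, key f'] at h2
    exact sub_eq_zero.1 (nsmul_cancel_of_coprime hcop (by rw [nsmul_sub, h2, sub_self]))
  have hsurj : Function.Surjective Φ := by
    intro w
    have hp_inj : Function.Injective (fun w : W => p • w) := fun a b h => Subtype.ext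
      (sub_eq_zero.1 (nsmul_cancel_of_coprime hcop (by
        have h' : p • (a : V) = p • (b : V) := congrArg Subtype.val h
        rw [nsmul_sub, h', sub_self])))
    obtain ⟨w', hw'⟩ := (Finite.injective_iff_surjective.1 hp_inj) w
    refine ⟨fun i => ⟨S i (w' : V), (hmem _ _).2 ⟨sum_mem fun k _ => ?_, hSfix i _⟩⟩, Subtype.ext ?_⟩
    · refine hpowmem (fun v hv => ?_) k _ w'.2
      rw [rho_mul]; exact hy _ (hpowmem he _ _ hv)
    · show ∑ i : Fin p, S i (w' : V) = (w : V)
      have hSe : ∑ k ∈ Finset.range p, ρ (e ^ k) (w' : V) = 0 := hfree _ (sum_range_pow_fixed ρ hep _)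
      have hid := line_identity ρ hye hyp hep (w' : V)
      rw [hSe] at hid
      simp only [map_zero, Finset.sum_const_zero, add_zero] at hid
      rw [Fin.sum_univ_eq_sum_range (fun i => S i (w' : V)) p]
      exact hid.trans (congrArg Subtype.val hw')
  calc Nat.card W = Nat.card (∀ i : Fin p, Wi i) := (Nat.card_eq_of_bijective Φ ⟨hinj, hsurj⟩).symm
    _ = ∏ i : Fin p, Nat.card (Wi i) := Nat.card_pi
    _ = ∏ _i : Fin p, Nat.card (Wi 0) := Finset.prod_congr rfl fun i _ => hcard i
    _ = Nat.card (Wi 0) ^ p := by rw [Finset.prod_const, Finset.card_univ, Fintype.card_fin]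
    _ = _ := by simp only [Wi, pow_zero, mul_one]

variable (Z : Subgroup G)

/-- A lower bound for modules in which `Z` has no fixed points. -/
theorem exists_abelian_bound (hcop : p.Coprime (Nat.card V)) (hZcard : Nat.card Z = p)
    (hfree : ∀ z ∈ Z, z ≠ 1 → ∀ v : V, ρ z v = v → v = 0) :
    ∀ (m : ℕ) (E : Subgroup G), Nat.card E = m → Z ≤ E → (∀ a ∈ E, a ^ p = 1) →
      (∀ a ∈ E, ∀ b ∈ E, a * b * a⁻¹ * b⁻¹ ∈ Z) → (∀ a ∈ E, ∀ z ∈ Z, a * z = z * a) →
      ∀ W : AddSubgroup V, (∀ a ∈ E, ∀ w ∈ W, ρ a w ∈ W) → W ≠ ⊥ →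
      ∃ (A : Subgroup G) (n : ℕ), A ≤ E ∧ Z ≤ A ∧ (∀ a ∈ A, ∀ b ∈ A, a * b = b * a) ∧
        Nat.card E = n * Nat.card A ∧ (p + 1) ^ n ≤ Nat.card W := by
  classical
  intro m
  induction m using Nat.strong_induction_on with
  | _ m ih =>
    intro E hEm hZE hexp hcomm hcent W hW hW0
    by_cases hab : ∀ a ∈ E, ∀ b ∈ E, a * b = b * a
    · refine ⟨E, 1, le_rfl, hZE, hab, (one_mul _).symm, ?_⟩
      rw [pow_one]
      have hZW : ∀ (z : Z), ∀ w ∈ W, ρ (z : G) w ∈ W := fun z w hw => hW _ (hZE z.2) w hw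
      letI act : MulAction Z W :=
        { smul := fun z w => ⟨ρ (z : G) (w : V), hZW z w w.2⟩
          one_smul := fun w => Subtype.ext (rho_one ρ (w : V))
          mul_smul := fun a b w => Subtype.ext (rho_mul ρ (a : G) (b : G) (w : V)) }
      have hZp : IsPGroup p Z := IsPGroup.of_card (n := 1) (by rw [hZcard, pow_one])
      have hmod := hZp.card_modEq_card_fixedPoints W
      obtain ⟨z, hz, hz1⟩ : ∃ z ∈ Z, z ≠ (1 : G) := by
        refine (Z.bot_or_exists_ne_one).resolve_left fun h => ?_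
        rw [h, Subgroup.card_bot] at hZcard
        exact hp.out.one_lt.ne hZcard
      have hfix : MulAction.fixedPoints Z W = {0} := by
        ext w
        constructor
        · intro h
          exact Subtype.ext (hfree z hz hz1 (w : V) (congrArg Subtype.val (h ⟨z, hz⟩)))
        · rintro rfl a
          exact Subtype.ext (map_zero (ρ (a : G)))
      rw [hfix, Nat.card_coe_set_eq, Set.ncard_singleton] at hmod
      have hgt : 1 < Nat.card W := by
        haveI : Nontrivial W := AddSubgroup.nontrivial_iff_ne_bot W |>.2 hW0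
        exact Finite.one_lt_card
      obtain ⟨k, hk⟩ := (Nat.modEq_iff_dvd' hgt.le).1 hmod.symm
      rcases k with _ | k
      · simp at hk; omega
      · have : p * (k + 1) = p * k + p := by ring
        omega
    · push_neg at hab
      obtain ⟨u, hu, y, hy, huy⟩ := hab
      set e := u * y * u⁻¹ * y⁻¹ with he
      have heZ : e ∈ Z := hcomm u hu y hy
      have he1 : e ≠ 1 := fun h => huy (by
        have : u * y = (u * y * u⁻¹ * y⁻¹) * (y * u) := by group
        rw [← he, h, one_mul] at this; exact this)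
      -- the centraliser of `y`
      let φ : E →* Z :=
        { toFun := fun a => ⟨(a : G) * y * (a : G)⁻¹ * y⁻¹, hcomm a a.2 y hy⟩
          map_one' := Subtype.ext (by simp)
          map_mul' := fun a b => by
            apply Subtype.ext
            show (a : G) * b * y * ((a : G) * b)⁻¹ * y⁻¹ =
              ((a : G) * y * (a : G)⁻¹ * y⁻¹) * ((b : G) * y * (b : G)⁻¹ * y⁻¹)
            set c := (b : G) * y * (b : G)⁻¹ * y⁻¹ with hc
            have hcZ : c ∈ Z := hcomm b b.2 y hy
            have h1 : (a : G) * b * y * ((a : G) * b)⁻¹ * y⁻¹ =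
                ((a : G) * c * (a : G)⁻¹) * ((a : G) * y * (a : G)⁻¹ * y⁻¹) := by rw [hc]; group
            rw [h1, hcent a a.2 c hcZ, mul_inv_cancel_right]
            exact (hcent _ (hZE (hcomm a a.2 y hy)) c hcZ).symm }
      let C : Subgroup G := φ.ker.map E.subtype
      have hCmem : ∀ a : G, a ∈ C ↔ a ∈ E ∧ a * y = y * a := by
        intro a
        constructor
        · rintro ⟨b, hb, rfl⟩
          have h := congrArg Subtype.val (MonoidHom.mem_ker.1 hb)
          change (b : G) * y * (b : G)⁻¹ * y⁻¹ = 1 at h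
          exact ⟨b.2, by rw [mul_inv_eq_one, mul_inv_eq_iff_eq_mul] at h; exact h⟩
        · rintro ⟨ha, hay⟩
          refine ⟨⟨a, ha⟩, MonoidHom.mem_ker.2 (Subtype.ext ?_), rfl⟩
          show a * y * a⁻¹ * y⁻¹ = 1
          rw [hay]; group
      have hrange : φ.range = ⊤ := by
        have hdvd := Subgroup.card_subgroup_dvd_card φ.range
        rw [hZcard] at hdvd
        rcases (Nat.dvd_prime hp.out).1 hdvd with h | h
        · exfalso
          have hm : φ ⟨u, hu⟩ ∈ φ.range := ⟨_, rfl⟩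
          rw [Subgroup.eq_bot_of_card_eq _ h, Subgroup.mem_bot] at hm
          exact he1 (congrArg Subtype.val hm)
        · exact Subgroup.eq_top_of_card_eq _ (h.trans hZcard.symm)
      have hCcard : Nat.card E = Nat.card C * p := by
        rw [Subgroup.card_map_of_injective E.subtype_injective, ← φ.ker.card_mul_index,
          Subgroup.index_ker, hrange, Subgroup.card_top, hZcard]
      have hClt : Nat.card C < m := by
        rw [← hEm, hCcard]; exact lt_mul_of_one_lt_right Nat.card_pos hp.out.one_lt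
      -- the fixed points of `y`
      set W' : AddSubgroup V := W ⊓ fixedOf ρ ({y} : Set G) with hW'
      have hpow := card_eq_fixed_pow ρ hcop W (hW u hu) (hW y hy) (hW e (hZE heZ))
        (hcent y hy e heZ) (hcent u hu e heZ) (by rw [hcent y hy e heZ, he]; group) (hexp y hy)
        (hexp e (hZE heZ)) (hfree e heZ he1)
      have hW'0 : W' ≠ ⊥ := fun h => by
        rw [← hW', h, AddSubgroup.card_bot, one_pow] at hpow
        exact hW0 (AddSubgroup.card_eq_one.1 hpow)
      obtain ⟨A, n, hAC, hZA, hAab, hAcard, hAW⟩ := ih _ hClt C rfl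
        (fun z hz => (hCmem z).2 ⟨hZE hz, (hcent y hy z hz).symm⟩)
        (fun a ha => hexp a ((hCmem a).1 ha).1)
        (fun a ha b hb => hcomm a ((hCmem a).1 ha).1 b ((hCmem b).1 hb).1)
        (fun a ha z hz => hcent a ((hCmem a).1 ha).1 z hz) W'
        (fun a ha w hw => by
          obtain ⟨haE, hay⟩ := (hCmem a).1 ha
          refine ⟨hW a haE w hw.1, fun g hg => ?_⟩
          rw [Set.mem_singleton_iff.1 hg, ← rho_mul, ← hay, rho_mul, hw.2 y rfl])
        hW'0
      refine ⟨A, n * p, fun a ha => ((hCmem a).1 (hAC ha)).1, hZA, hAab, ?_, ?_⟩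
      · rw [hCcard, hAcard]; ring
      · rw [pow_mul, hpow]
        exact Nat.pow_le_pow_left hAW p

end Cfsg.Agent.Lib.AvoidConj
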