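import Mathlib

/-!
Elementary facts used for avoiding fixed points of conjugates of an element of odd prime order.
-/

set_option autoImplicit false

namespace Cfsg.Agent.Lib.AvoidConj

universe u v

section GroupFacts

/-- A `p`-group has at most as many homomorphisms into a group of order `p` as it has elements. -/
theorem card_hom_le_card {p : ℕ} [hp : Fact p.Prime] {M : Type v} [Group M] [Finite M]
    (hM : Nat.card M = p) : ∀ (n : ℕ) (Q : Type u) [Group Q] [Finite Q],
    IsPGroup p Q → Nat.card Q = n → Nat.card (Q →* M) ≤ Nat.card Q := by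
  intro n
  induction n using Nat.strong_induction_on with
  | _ n ih =>
    intro Q _ _ hQ hn
    classical
    haveI : Finite (Q →* M) := Finite.of_injective (fun f => (f : Q → M)) DFunLike.coe_injective
    by_cases hbt : (⊥ : Subgroup Q) = ⊤
    · haveI : Subsingleton (Q →* M) := ⟨fun f g => MonoidHom.ext fun x => by
        have hx : x ∈ (⊥ : Subgroup Q) := hbt ▸ Subgroup.mem_top x
        rw [Subgroup.mem_bot.1 hx, map_one, map_one]⟩
      have h1 : Nat.card (Q →* M) ≤ 1 := Finite.card_le_one_iff_subsingleton.2 inferInstance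
      exact h1.trans Nat.card_pos
    obtain ⟨H, hH, -⟩ := (eq_top_or_exists_le_coatom (⊥ : Subgroup Q)).resolve_left hbt
    obtain ⟨g, hg⟩ : ∃ g : Q, g ∉ H := by
      by_contra hc
      push_neg at hc
      exact hH.1 (eq_top_iff.2 fun x _ => hc x)
    have htop : H ⊔ Subgroup.zpowers g = ⊤ := hH.2 _ (lt_of_le_of_ne le_sup_left (fun h =>
      hg (h.symm ▸ (le_sup_right : Subgroup.zpowers g ≤ H ⊔ Subgroup.zpowers g) (Subgroup.mem_zpowers g))))
    have hidx : p ≤ H.index := by
      obtain ⟨k, hk⟩ := hQ.index H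
      rw [hk]
      refine Nat.le_self_pow ?_ p
      rintro rfl
      exact hH.1 (Subgroup.index_eq_one.1 (by simpa using hk))
    have hlt : Nat.card H < n := by
      rw [← hn, ← H.card_mul_index]
      exact lt_mul_of_one_lt_right Nat.card_pos (lt_of_lt_of_le hp.out.one_lt hidx)
    have hIH := ih _ hlt H (hQ.to_subgroup H) rfl
    let F : (Q →* M) → (H →* M) × M := fun f => (f.comp H.subtype, f g)
    have hF : Function.Injective F := by
      intro f f' h
      have h1 := congrArg Prod.fst h
      have h2 : f g = f' g := congrArg Prod.snd h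
      have hle : H ⊔ Subgroup.zpowers g ≤ f.eqLocus f' := by
        refine sup_le (fun x hx => ?_) (Subgroup.zpowers_le.2 h2)
        exact DFunLike.congr_fun h1 ⟨x, hx⟩
      exact MonoidHom.ext fun x => hle (htop ▸ Subgroup.mem_top x)
    haveI : Finite (H →* M) := Finite.of_injective (fun f => (f : H → M)) DFunLike.coe_injective
    calc Nat.card (Q →* M) ≤ Nat.card ((H →* M) × M) := Nat.card_le_card_of_injective F hF
      _ = Nat.card (H →* M) * p := by rw [Nat.card_prod, hM]
      _ ≤ Nat.card H * H.index := Nat.mul_le_mul hIH hidx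
      _ = Nat.card Q := H.card_mul_index

variable {G : Type u} [Group G]

/-- Powers of an element that moves `c` by an element moved centrally. -/
theorem pow_conj_eq {y c d e : G} (hc : y * c * y⁻¹ = d * c) (hd : y * d * y⁻¹ = e * d)
    (he : y * e * y⁻¹ = e) (hde : Commute d e) :
    ∀ n : ℕ, y ^ n * c * (y ^ n)⁻¹ = e ^ n.choose 2 * d ^ n * c := by
  intro n
  induction n with
  | zero => simp
  | succ n ih =>
    have h1 : y ^ (n + 1) * c * (y ^ (n + 1))⁻¹ = MulAut.conj y (y ^ n * c * (y ^ n)⁻¹) := by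
      rw [MulAut.conj_apply, pow_succ']; group
    have hch : (n + 1).choose 2 = n + n.choose 2 := by
      rw [show (2 : ℕ) = 1 + 1 from rfl, Nat.choose_succ_succ, Nat.choose_one_right]
    rw [h1, ih, map_mul, map_mul, map_pow, map_pow, MulAut.conj_apply, MulAut.conj_apply,
      MulAut.conj_apply, hc, hd, he, hde.symm.mul_pow, hch, pow_add, pow_succ]
    have hce : Commute (e ^ n.choose 2) (e ^ n) := Commute.pow_pow rfl _ _
    simp only [← mul_assoc]
    rw [hce.eq]

/-- Powers of a product `d * y` when the commutator of `y` and `d` is central. -/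
theorem mul_pow_eq {y d e : G} (hd : y * d * y⁻¹ = e * d) (he : Commute y e) (hde : Commute d e) :
    ∀ n : ℕ, (d * y) ^ n = e ^ n.choose 2 * d ^ n * y ^ n := by
  intro n
  induction n with
  | zero => simp
  | succ n ih =>
    have hyd : ∀ m : ℕ, y ^ m * d = e ^ m * d * y ^ m := by
      intro m
      induction m with
      | zero => simp
      | succ m ihm =>
        have hye : y * e ^ m = e ^ m * y := (he.pow_right m).eq
        have hyd1 : y * d = e * d * y := by rw [← hd]; group
        calc y ^ (m + 1) * d = y * (y ^ m * d) := by rw [pow_succ', mul_assoc]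
          _ = y * (e ^ m * d * y ^ m) := by rw [ihm]
          _ = y * e ^ m * d * y ^ m := by simp only [mul_assoc]
          _ = e ^ m * (y * d) * y ^ m := by rw [hye]; simp only [mul_assoc]
          _ = e ^ m * (e * d * y) * y ^ m := by rw [hyd1]
          _ = e ^ (m + 1) * d * y ^ (m + 1) := by rw [pow_succ e, pow_succ' y]; simp only [mul_assoc]
    have hch : (n + 1).choose 2 = n + n.choose 2 := by
      rw [show (2 : ℕ) = 1 + 1 from rfl, Nat.choose_succ_succ, Nat.choose_one_right]
    calc (d * y) ^ (n + 1) = e ^ n.choose 2 * d ^ n * (y ^ n * d) * y := by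
          rw [pow_succ, ih]; simp only [mul_assoc]
      _ = e ^ n.choose 2 * d ^ n * (e ^ n * d * y ^ n) * y := by rw [hyd]
      _ = e ^ n.choose 2 * (d ^ n * e ^ n) * d * y ^ (n + 1) := by rw [pow_succ y]; simp only [mul_assoc]
      _ = e ^ n.choose 2 * (e ^ n * d ^ n) * d * y ^ (n + 1) := by rw [(hde.pow_pow n n).eq]
      _ = e ^ (n + 1).choose 2 * d ^ (n + 1) * y ^ (n + 1) := by
          rw [hch, add_comm n (n.choose 2), pow_add e, pow_succ d]; simp only [mul_assoc]

theorem dvd_choose_two {p : ℕ} (hp : p.Prime) (hp2 : p ≠ 2) : p ∣ p.choose 2 :=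
  hp.dvd_choose_self (by norm_num) (lt_of_le_of_ne hp.two_le (Ne.symm hp2))

end GroupFacts

section Operators

variable {G : Type u} [Group G] {V : Type v} [AddCommGroup V]

/-- The sum of the operators of the elements of a subgroup. -/
noncomputable def normOp (ρ : G →* AddMonoid.End V) (H : Subgroup G) (v : V) : V :=
  ∑ᶠ h : H, ρ h v

variable [Finite G] (ρ : G →* AddMonoid.End V)

theorem normOp_eq_sum (H : Subgroup G) [Fintype H] (v : V) : normOp ρ H v = ∑ h : H, ρ h v :=
  finsum_eq_sum_of_fintype _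

theorem normOp_fixed (H : Subgroup G) {k : G} (hk : k ∈ H) (v : V) :
    ρ k (normOp ρ H v) = normOp ρ H v := by
  classical
  haveI := Fintype.ofFinite H
  rw [normOp_eq_sum, map_sum]
  have : ∀ h : H, ρ k (ρ (h : G) v) = ρ (((⟨k, hk⟩ : H) * h : H) : G) v := fun h => by
    rw [Subgroup.coe_mul, map_mul]; rfl
  simp only [this]
  exact Equiv.sum_comp (Equiv.mulLeft (⟨k, hk⟩ : H)) (fun h : H => ρ (h : G) v)

theorem normOp_of_fixed (H : Subgroup G) (v : V) (hv : ∀ h ∈ H, ρ h v = v) :
    normOp ρ H v = Nat.card H • v := by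
  classical
  haveI := Fintype.ofFinite H
  rw [normOp_eq_sum, Finset.sum_congr rfl (fun h _ => hv _ h.2), Finset.sum_const, Nat.card_eq_fintype_card]
  rfl

theorem rho_inv_cancel (g : G) (v : V) : ρ g⁻¹ (ρ g v) = v := by
  show (ρ g⁻¹ * ρ g) v = v
  rw [← map_mul, inv_mul_cancel, map_one]; rfl

theorem rho_cancel_inv (g : G) (v : V) : ρ g (ρ g⁻¹ v) = v := by
  simpa using rho_inv_cancel ρ g⁻¹ v

theorem rho_mul (g h : G) (v : V) : ρ (g * h) v = ρ g (ρ h v) := by
  rw [map_mul]; rfl

theorem rho_one (v : V) : ρ 1 v = v := by rw [map_one]; rfl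

/-- The fixed points of a set of elements. -/
def fixedOf (S : Set G) : AddSubgroup V where
  carrier := {v | ∀ g ∈ S, ρ g v = v}
  add_mem' := fun ha hb g hg => by rw [map_add, ha g hg, hb g hg]
  zero_mem' := fun g _ => map_zero _
  neg_mem' := fun ha g hg => by rw [map_neg, ha g hg]

theorem mem_fixedOf {S : Set G} {v : V} : v ∈ fixedOf ρ S ↔ ∀ g ∈ S, ρ g v = v := Iff.rfl

theorem fixedOf_antitone {S T : Set G} (h : S ⊆ T) : fixedOf ρ T ≤ fixedOf ρ S :=
  fun _ hv g hg => hv g (h hg)

theorem fixed_pow {g : G} {v : V} (h : ρ g v = v) : ∀ n : ℕ, ρ (g ^ n) v = v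
  | 0 => by rw [pow_zero, rho_one]
  | n + 1 => by rw [pow_succ, rho_mul, h, fixed_pow h n]

theorem fixed_zpowers {g : G} {v : V} (h : ρ g v = v) {k : G} (hk : k ∈ Subgroup.zpowers g) : ρ k v = v := by
  obtain ⟨n, rfl⟩ := mem_powers_iff_mem_zpowers.2 hk
  exact fixed_pow ρ h n

theorem nsmul_cancel_of_coprime {n : ℕ} [Finite V] (hn : n.Coprime (Nat.card V)) {v : V}
    (h : n • v = 0) : v = 0 := by
  have h1 : addOrderOf v ∣ n := addOrderOf_dvd_of_nsmul_eq_zero h
  have h2 : addOrderOf v ∣ Nat.card V := addOrderOf_dvd_natCard v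
  exact AddMonoid.addOrderOf_eq_one_iff.1 (Nat.eq_one_of_dvd_coprimes hn h1 h2)

/-- Identity relating the sums over the lines of a plane of order `p ^ 2`. -/
theorem line_identity {p : ℕ} [hp : Fact p.Prime] {b c : G} (hbc : Commute b c) (hb : b ^ p = 1)
    (hc : c ^ p = 1) (v : V) :
    (∑ i ∈ Finset.range p, ∑ j ∈ Finset.range p, ρ ((b * c ^ i) ^ j) v) +
        (∑ k ∈ Finset.range p, ρ (c ^ k) v) =
      p • v + ∑ j ∈ Finset.range p, ρ (b ^ j) (∑ k ∈ Finset.range p, ρ (c ^ k) v) := by
  classical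
  obtain ⟨p', hp'⟩ : ∃ p', p = p' + 1 := ⟨p - 1, by have := hp.out.pos; omega⟩
  rw [Finset.sum_comm]
  have hterm : ∀ j ∈ Finset.range p, ∑ i ∈ Finset.range p, ρ ((b * c ^ i) ^ j) v =
      if j = 0 then p • v else ρ (b ^ j) (∑ k ∈ Finset.range p, ρ (c ^ k) v) := by
    intro j hj
    split_ifs with h0
    · subst h0
      simp [rho_one]
    · rw [map_sum]
      have he : ∀ i, ρ ((b * c ^ i) ^ j) v = ρ (b ^ j) (ρ (c ^ (i * j % p)) v) := fun i => by
        rw [(hbc.pow_right i).mul_pow, rho_mul, ← pow_mul, pow_eq_pow_mod _ hc]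
      simp only [he]
      have hcop : j.Coprime p := ((hp.out.coprime_iff_not_dvd.2 (Nat.not_dvd_of_pos_of_lt (Nat.pos_of_ne_zero h0) (Finset.mem_range.1 hj))).symm)
      have hinj : Set.InjOn (fun i => i * j % p) (Finset.range p : Set ℕ) := by
        intro i hi i' hi' h
        have h' : i ≡ i' [MOD p] := Nat.ModEq.cancel_right_of_coprime (hcop.symm) h
        exact Nat.ModEq.eq_of_lt_of_lt h' (Finset.mem_range.1 hi) (Finset.mem_range.1 hi')
      have himg : (Finset.range p).image (fun i => i * j % p) = Finset.range p := by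
        refine Finset.eq_of_subset_of_card_le (fun x hx => ?_) ?_
        · obtain ⟨i, -, rfl⟩ := Finset.mem_image.1 hx
          exact Finset.mem_range.2 (Nat.mod_lt _ hp.out.pos)
        · rw [Finset.card_image_of_injOn hinj]
      conv_rhs => rw [← himg, Finset.sum_image hinj]
  rw [Finset.sum_congr rfl hterm, hp', Finset.sum_range_succ', Finset.sum_range_succ' (fun j => ρ (b ^ j) _)]
  rw [if_pos rfl, Finset.sum_congr rfl (fun j _ => if_neg (Nat.succ_ne_zero j)), pow_zero, rho_one]
  abel

end Operators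

end Cfsg.Agent.Lib.AvoidConj
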